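import Cfsg.Agent.CK.Char

/-!
The first four degrees of a graded symmetric algebra (`GS`): the case of a surjective left multiplication.
-/

set_option autoImplicit false

namespace Cfsg.Agent.CK

open Module Function Submodule

variable {F V W₂ W₃ W₄ : Type*} [Field F] [AddCommGroup V] [Module F V] [AddCommGroup W₂] [Module F W₂]
  [AddCommGroup W₃] [Module F W₃] [AddCommGroup W₄] [Module F W₄]

/-- Degrees one to four of a graded symmetric algebra. -/
structure GS (m : V →ₗ[F] V →ₗ[F] W₂) (L R : V →ₗ[F] W₂ →ₗ[F] W₃) (L₃ R₃ : V →ₗ[F] W₃ →ₗ[F] W₄) : Prop where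
  as2 : ∀ x y z, L x (m y z) = R z (m x y)
  as3 : ∀ x z u, L₃ x (R z u) = R₃ z (L x u)
  nd1 : ∀ y, (∀ x, m x y = 0) → y = 0
  nd2 : ∀ u, (∀ x, L x u = 0) → u = 0
  nd3 : ∀ u, (∀ x, L₃ x u = 0) → u = 0
  span : ∀ S : Submodule F W₂, (∀ x y, m x y ∈ S) → S = ⊤
  hL : ∀ a, Surjective (m a) → Injective (m.flip a)
  hR : ∀ a, Surjective (m.flip a) → Injective (m a) ∧ Injective (L a)

variable {m : V →ₗ[F] V →ₗ[F] W₂} {L R : V →ₗ[F] W₂ →ₗ[F] W₃} {L₃ R₃ : V →ₗ[F] W₃ →ₗ[F] W₄}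

/-- Commutators span degree two. -/
def C2 (m : V →ₗ[F] V →ₗ[F] W₂) : Prop := ∀ S : Submodule F W₂, (∀ x y, m x y - m y x ∈ S) → S = ⊤

/-- Commutators span degree three. -/
def C3 (L R : V →ₗ[F] W₂ →ₗ[F] W₃) : Prop := ∀ S : Submodule F W₃, (∀ x u, L x u - R x u ∈ S) → S = ⊤

lemma GS.exists_tw [Module.Finite F V] [Module.Finite F W₂] (h : GS m L R L₃ R₃) {a : V}
    (ha : Surjective (m a)) : ∃ (s : V →ₗ[F] V →ₗ[F] V) (σ : V ≃ₗ[F] V), Tw s a σ ∧
       (∀ x y, m x y = m a (s x y)) ∧ Surjective (m.flip a) ∧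
      (C2 m → ∀ f : V →ₗ[F] F, (∀ x y, f (s x y) = f (s y x)) → f = 0) ∧
      (C3 L R → ∀ f : V →ₗ[F] F, (∀ x z, f (s (σ x) z) = f (s z x)) → f = 0) := by
  have h1 := h.hL a ha
  have h2 : Surjective (m.flip a) := (LinearMap.injective_iff_surjective_of_finrank_eq_finrank
    ((LinearMap.finrank_le_finrank_of_injective h1).antisymm
      (LinearMap.finrank_le_finrank_of_surjective ha))).1 h1
  obtain ⟨h3, h4⟩ := h.hR a h2
  let e := LinearEquiv.ofBijective (m a) ⟨h3, ha⟩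
  have he : ∀ u, m a (e.symm u) = u := e.apply_symm_apply
  let s := m.compr₂ e.symm.toLinearMap
  let σ := (LinearEquiv.ofBijective (m.flip a) ⟨h1, h2⟩).trans e.symm
  have hs : ∀ x y, m x y = m a (s x y) := fun x y => (he _).symm
  have hσ : ∀ x, m x a = m a (σ x) := fun x => (he _).symm
  have e1 : ∀ x z, L x (m a z) = L a (m a (s (σ x) z)) := fun x z => by rw [h.as2, hσ, ← h.as2, ← hs]
  have e2 : ∀ x z, R x (m a z) = L a (m a (s z x)) := fun x z => by rw [← h.as2, ← hs]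
  refine ⟨s, σ, ⟨fun y => h3 (hs a y).symm, fun x => rfl, fun x y z => h3 (h4 ?_)⟩, hs, h2,
    fun hc f hf => ?_, fun hc f hf => ?_⟩
  · rw [← e1, ← e2, ← hs, ← hs, h.as2]
  · have := hc ((LinearMap.ker f).map (m a)) fun x y => ⟨s x y - s y x, by simp [hf x y], by
      rw [map_sub, ← hs, ← hs]⟩
    ext x
    obtain ⟨y, hy, e⟩ := this.ge (mem_top : m a x ∈ _)
    exact h3 e ▸ hy
  · have := hc ((LinearMap.ker f).map (L a ∘ₗ m a)) fun x u => by
      obtain ⟨z, rfl⟩ := ha u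
      exact ⟨s (σ x) z - s z x, by simp [hf x z], by rw [map_sub, e1, e2]; rfl⟩
    ext x
    obtain ⟨y, hy, e⟩ := this.ge (mem_top : L a (m a x) ∈ _)
    exact h3 (h4 e) ▸ hy

lemma GS.exists_surj [Nontrivial V] (h : GS m L R L₃ R₃)
    (h1 : ∀ a y y', m a y ≠ 0 → ∃ c : F, c • m a y = m a y') : ∃ a, Surjective (m a) := by
  obtain ⟨y₁, hy₁⟩ := exists_ne (0 : V)
  obtain ⟨a₁, ha₁⟩ : ∃ a, m a y₁ ≠ 0 := by_contra fun e => hy₁ (h.nd1 _ (by simpa using e))
  refine ⟨a₁, by_contra fun hs => ?_⟩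
  obtain ⟨a₂, y₂, h2⟩ : ∃ a y, m a y ∉ LinearMap.range (m a₁) := by_contra fun e =>
    hs (LinearMap.range_eq_top.1 (h.span _ (by simpa using e)))
  have key : ∀ a b y y', m a y = 0 → m b y ≠ 0 → ∃ c : F, c • m b y = m a y' := fun a b y y' e e' => by
    obtain ⟨c, hc⟩ := h1 (a + b) y y' (by simpa [e] using e')
    obtain ⟨d, hd⟩ := h1 b y y' e'
    refine ⟨c - d, ?_⟩
    simp only [map_add, LinearMap.add_apply, e, zero_add] at hc
    rw [sub_smul, hc, hd, add_sub_cancel_right]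
  have k2 : ∀ {u u' : W₂} {c : F}, u' ≠ 0 → c • u = u' → u' ∈ LinearMap.range (m a₁) →
      u ∈ LinearMap.range (m a₁) := fun {u u' c} h0 e hu => by
    have hc : c ≠ 0 := by rintro rfl; exact h0 (by simpa using e.symm)
    simpa [← e, hc] using smul_mem _ c⁻¹ hu
  by_cases hi : Injective (m a₁)
  · obtain ⟨c, hc⟩ := h1 a₁ y₁ a₁ ha₁
    obtain ⟨d, hd⟩ := h1 a₁ y₁ a₂ ha₁
    rw [← map_smul] at hc hd
    have hc0 : c ≠ 0 := by
      rintro rfl
      exact ha₁ (by rw [← hi hc]; simp)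
    refine h2 ⟨(d / c) • y₂, ?_⟩
    rw [← hi hd, ← hi hc]
    simp [smul_smul, hc0]
  · obtain ⟨y, hy, hy0⟩ : ∃ y, m a₁ y = 0 ∧ y ≠ 0 := by
      simpa [injective_iff_map_eq_zero] using hi
    by_cases e : m a₂ y = 0
    · obtain ⟨b, hb⟩ : ∃ b, m b y ≠ 0 := by_contra fun e => hy0 (h.nd1 _ (by simpa using e))
      obtain ⟨c, hc⟩ := key a₁ b y y₁ hy hb
      obtain ⟨d, hd⟩ := key a₂ b y y₂ e hb
      exact h2 (hd ▸ smul_mem _ d (k2 ha₁ hc ⟨_, rfl⟩))
    · obtain ⟨c, hc⟩ := key a₁ a₂ y y₁ hy e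
      obtain ⟨d, hd⟩ := h1 a₂ y y₂ e
      exact h2 (hd ▸ smul_mem _ d (k2 ha₁ hc ⟨_, rfl⟩))

variable [IsAlgClosed F] [Module.Finite F V] [Module.Finite F W₂] [Nontrivial V]

theorem GS.three_of_surj (h : GS m L R L₃ R₃) (h3 : finrank F V ≤ 3) (c2 : C2 m)
    (c3 : finrank F W₂ = 3 → C3 L R) {a : V} (ha : Surjective (m a)) : False := by
  obtain ⟨s, σ, T, -, hs, h1, h2⟩ := h.exists_tw ha
  obtain ⟨χ, e1, e2, e | ⟨⟨x, hx⟩, e⟩ | ⟨e3, ⟨x, hx⟩, e⟩⟩ := T.exists_char h3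
  · simpa [e1] using LinearMap.congr_fun (h1 c2 χ fun x y => by simp only [e2, e, mul_comm]) a
  · have h4 := fun x => LinearMap.congr_fun (h1 c2 (χ + χ ∘ₗ σ.toLinearMap) fun x y => by
      simp [T.map, e2, e]; ring) x
    have h5 := h4 a
    have h6 := h4 x
    simp only [LinearMap.add_apply, LinearMap.comp_apply, LinearEquiv.coe_coe, T.fix, e1,
      LinearMap.zero_apply] at h5 h6
    exact hx (by linear_combination h6 - χ x * h5)
  · refine hx ?_
    simpa using LinearMap.congr_fun (h2 (c3 (e3 ▸ ((LinearMap.finrank_le_finrank_of_surjective ha).antisymm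
      (LinearMap.finrank_le_finrank_of_injective (h.hL a ha))))) (χ + χ ∘ₗ σ.toLinearMap +
        χ ∘ₗ σ.toLinearMap ∘ₗ σ.toLinearMap) fun x y => by simp [T.map, e2, e]; ring) x

theorem GS.two [Module.Finite F W₃] [Module.Finite F W₄] (h : GS m L R L₃ R₃) (h2 : finrank F V ≤ 2)
    (h2' : finrank F W₂ ≤ 2) (c3 : C3 L R) (hR : ∀ a, Surjective (m.flip a) → Injective (L₃ a))
    (c4 : ∀ x y : V, (∀ v, ∃ c d : F, c • x + d • y = v) → m x x = 0 → m y y = 0 → finrank F V = 2 →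
      finrank F W₂ = 2 → finrank F W₃ + finrank F W₄ ≤ 3) : False := by
  obtain ⟨a, ha⟩ : ∃ a, Surjective (m a) := by
    by_contra hs
    refine hs (h.exists_surj fun a y y' h0 => by_contra fun e => hs ⟨a, LinearMap.range_eq_top.1 ?_⟩)
    have li := (LinearIndependent.pair_iff' h0).2 (not_exists.1 e)
    rw [eq_top_iff, ← li.span_eq_top_of_card_eq_finrank (li.fintype_card_le_finrank.antisymm (by simpa)),
      span_le]
    rintro _ ⟨i, rfl⟩
    fin_cases i <;> exact ⟨_, rfl⟩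
  obtain ⟨s, σ, T, hm, hs, -, h1⟩ := h.exists_tw ha
  obtain ⟨χ, e1, e2, e | ⟨⟨x₀, hx⟩, e⟩ | ⟨e3, -⟩⟩ := T.exists_char (h2.trans (by norm_num))
  · simpa [e1] using LinearMap.congr_fun (h1 c3 χ fun x y => by simp only [e2, e, mul_comm]) a
  · have hd := sub_ne_zero.2 hx.symm
    obtain ⟨x, x1, x2⟩ : ∃ x, χ x = 1 ∧ χ (σ x) = 0 :=
      ⟨(χ x₀ - χ (σ x₀))⁻¹ • (x₀ - χ (σ x₀) • a), by simp [e1, hd], by simp [e1, T.fix]⟩
    have y1 : χ (a - x) = 0 := by simp [e1, x1]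
    have y2 : χ (σ (a - x)) = 1 := by simp [e1, x2, T.fix]
    generalize a - x = y at y1 y2
    have li : LinearIndependent F ![x, y] := LinearIndependent.pair_iff.2 fun c d e =>
      ⟨by simpa [x1, y1] using congrArg χ e, by simpa [x2, y2] using congrArg (fun v => χ (σ v)) e⟩
    have hV : finrank F V = 2 := h2.antisymm (by simpa using li.fintype_card_le_finrank)
    have hsp : ∀ v, ∃ c d : F, c • x + d • y = v := fun v => mem_span_pair.1 (by
      have := li.span_eq_top_of_card_eq_finrank (by simpa using hV.symm)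
      simp only [Matrix.range_cons, Matrix.range_empty, Set.union_empty, Set.singleton_union] at this
      exact this.ge mem_top)
    have h0 : ∀ v, χ v = 0 → χ (σ v) = 0 → v = 0 := fun v v1 v2 => by
      obtain ⟨c, d, rfl⟩ := hsp v
      simp [x1, x2, y1, y2] at v1 v2
      simp [v1, v2]
    have i2 := h.hR a hs
    have := c4 x y hsp (by rw [hm, h0 (s x x) (by simp [e2, x2]) (by simp [T.map, e2, x2]), map_zero])
      (by rw [hm, h0 (s y y) (by simp [e2, y1]) (by simp [T.map, e2, e, y1]), map_zero]) hV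
      (h2'.antisymm (hV ▸ LinearMap.finrank_le_finrank_of_injective i2.1))
    have i3 := LinearMap.finrank_le_finrank_of_injective i2.1
    have i4 := LinearMap.finrank_le_finrank_of_injective i2.2
    have i5 := LinearMap.finrank_le_finrank_of_injective (hR a hs)
    omega
  · omega

end Cfsg.Agent.CK
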