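import Cfsg.Agent.CK.Ring
import Cfsg.Agent.Block.FrobB
import Cfsg.Agent.BMod.KW

/-!
A block with an abelian defect group of order eight does not have `l = 1` and `k = 5` (`not_abelian_eight`).
-/

set_option autoImplicit false
set_option linter.unusedSectionVars false

namespace Cfsg.Agent.CK

open Cfsg MonoidAlgebra Cfsg.Agent.BMod Cfsg.Agent.Block Cfsg.Agent.Char Cfsg.Agent.Transfer Cfsg.Agent.CharDeep

variable {G : Type*} [Group G]

local notation "𝐂" x:max => Subgroup.centralizer (x : Set G)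
local notation "𝐙" => Subgroup.zpowers

lemma card_cls_eq [Finite G] {P T : Subgroup G} (hT : T ≤ Subgroup.normalizer (P : Set G)) {u : G} (hu : u ∈ P) :
    Nat.card {v : P // (v : G) ∈ cls T u} = (𝐂 (𝐙 u)).relIndex T := by
  letI := MulAction.compHom G (MulAut.conj.comp T.subtype)
  have h1 : MulAction.stabilizer T u = (𝐂 (𝐙 u)).subgroupOf T := Subgroup.ext fun k => by
    rw [Subgroup.mem_subgroupOf, mem_centralizer_zpowers_iff]
    exact ⟨fun h => (mul_inv_eq_iff_eq_mul.1 h).symm, fun h => mul_inv_eq_iff_eq_mul.2 h.eq.symm⟩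
  rw [Subgroup.relIndex, ← h1, MulAction.index_stabilizer, ← Nat.card_coe_set_eq]
  exact Nat.card_congr ⟨fun v => ⟨v.1, let ⟨k, hk, e⟩ := v.2; ⟨⟨k, hk⟩, e⟩⟩, fun v => ⟨⟨v.1,
    let ⟨k, e⟩ := v.2; e ▸ (Subgroup.mem_normalizer_iff.1 (hT k.2) u).1 hu⟩,
    let ⟨k, e⟩ := v.2; ⟨k, k.2, e⟩⟩, fun _ => rfl, fun _ => rfl⟩

lemma mem_cent_of_index [Finite G] {P R : Subgroup G} (h8 : Nat.card P = 8) (hR : R.relIndex P ∣ 2) {t : G}
    (ht : t ∈ Subgroup.normalizer (P : Set G)) {n : ℕ} (hn : ¬ 2 ∣ n) (htn : t ^ n ∈ 𝐂 P) (h : t ∈ 𝐂 R) :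
    t ∈ 𝐂 P := fun x hx => by
  have hx' := (Subgroup.mem_normalizer_iff.1 ht x).1 hx
  by_cases h1 : x ∈ R
  · exact h x h1
  by_cases h2 : t * x * t⁻¹ ∈ R
  · exact mul_left_cancel (a := t) (mul_right_cancel (b := t⁻¹) (by simpa [mul_assoc] using h _ h2))
  have h3 : x⁻¹ * (t * x * t⁻¹) ∈ R := by
    rcases (Nat.dvd_prime Nat.prime_two).1 hR with e | e
    · exact absurd (Subgroup.relIndex_eq_one.1 e hx) h1
    · exact (Subgroup.mul_mem_iff_of_index_two e (a := ⟨x, hx⟩⁻¹) (b := ⟨_, hx'⟩)).2 (by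
        simp [Subgroup.mem_subgroupOf, h1, h2])
  have h4 : ∀ k : ℕ, t ^ k * x = x * (x⁻¹ * (t * x * t⁻¹)) ^ k * t ^ k := fun k => by
    induction k with
    | zero => simp
    | succ k ih =>
      rw [pow_succ', mul_assoc, ih, ← mul_assoc _ t, mul_assoc x _ t, pow_succ', mul_assoc _ _ t,
        h _ (pow_mem h3 k)]
      simp only [mul_assoc, inv_mul_cancel_left, mul_inv_cancel_left]
  have h5 : (x⁻¹ * (t * x * t⁻¹)) ^ n = 1 := by simpa using (htn x hx).trans (h4 n)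
  have h6 := Nat.dvd_gcd (orderOf_dvd_of_pow_eq_one h5)
    (h8 ▸ Subgroup.orderOf_dvd_natCard P (mul_mem (inv_mem hx) hx'))
  rw [(((Nat.Prime.coprime_iff_not_dvd Nat.prime_two).2 hn).pow_left 3).symm, Nat.dvd_one,
    orderOf_eq_one_iff, inv_mul_eq_one, eq_mul_inv_iff_mul_eq] at h6
  exact h6

variable [Fintype G] {M : Ideal AlgInt} {B : Set (IrrCharacter G)} {P : Subgroup G}

lemma card_bound {p : ℕ} [Fact p.Prime] [PMod p M] {e : (F M)[G]} (hB : IsPBlock M B)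
    (hm : IsMax p (eB M B) P e) {u z : G} (hu : u ∈ P) (hz : z ∈ P ⊓ 𝐂 P) (hc : u ∈ Subgroup.center G)
    (h1 : u ≠ 1) (h2 : z ∉ 𝐙 u) (hl : blockRank p (bu p P e z) = 1) :
    blockRank p B + blockRank p (bu p P e u) + 1 ≤ Nat.card P := by
  classical
  have := Fintype.ofFinite (𝐂 (𝐙 z))
  have h3 := (isSub_zu hm.pair hz.1).card_le_of_major (induced_bu hB hm hz.1) (defect_bu_of_center hB hm hz)
  rw [hl, mul_one, ← IsDefectGroup.card_eq hB ((isDefectGroup_iff_isDef hB).2 hm.isDef),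
    card_eq_sum_rank_bu hB hm] at h3
  have hc' : ∀ {v}, IsConj u v → u = v := fun {v} h => by
    obtain ⟨k, rfl⟩ := isConj_iff.1 h
    rw [Subgroup.mem_center_iff.1 hc k, mul_inv_cancel_right]
  obtain ⟨r, hr, h4⟩ := exists_tv_rep (p := p) (e := e) hu
  obtain rfl := hc' h4.isConj
  obtain ⟨s, hs, h5⟩ := exists_tv_rep (p := p) (e := e) hz.1
  have h6 : s ≠ 1 := by
    rintro rfl
    exact h2 (h5.symm.eq_one ▸ one_mem _)
  have h7 : u ≠ s := by
    rintro rfl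
    exact h2 (hc' h5.symm.isConj ▸ Subgroup.mem_zpowers _)
  refine le_trans ?_ ((Finset.sum_le_sum_of_subset (s := {1, u, s}) (by
    simp [Finset.insert_subset_iff, one_mem_tv, hr, hs])).trans h3)
  rw [Finset.sum_insert (by simp [h1.symm, h6.symm]), Finset.sum_pair h7, rank_bu_one hB hm,
    ← h5.rank_eq hB hm hz.1 (mem_of_mem_tv hs), hl, add_assoc]

theorem not_abelian_eight [PMod 2 M] {e : (F M)[G]} (hB : IsPBlock M B) (hm : IsMax 2 (eB M B) P e)
    (hab : P ≤ 𝐂 P) (h8 : Nat.card P = 8) (hl : blockRank 2 B = 1) (hk : Nat.card B = 5) : False := by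
  classical
  have := Fintype.ofFinite P
  have hnd := hm.not_dvd_of_comm hab
  have hfix : ∀ u ∈ P, NP P e ≤ 𝐂 (𝐙 u) → u = 1 := fun u hu h => by
    obtain ⟨π, h1, h2⟩ := exists_norm hab hm.pair.1 (K := NP P e) inf_le_left hnd
    have h3 := relIndex_dvd_card hB hm (N := π.ker.map P.subtype) (Z := P) (fun u hu v hv h => by
      obtain ⟨k, hk, e⟩ := (hm.fz_iff_of_comm hab hu hv).1 h
      exact ⟨⟨u, hu⟩⁻¹ * ⟨v, hv⟩, by simp [h1 k hk ⟨u, hu⟩ ⟨v, hv⟩ e], rfl⟩) le_rfl (X := B) le_rfl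
      (fun _ _ _ h _ => h) fun χ hχ u hu => mu_ne_zero_of_center hB hm ⟨hu, hab hu⟩ hχ
    have h4 := Nat.dvd_gcd (hk ▸ h3) (h8 ▸ Subgroup.relIndex_dvd_card _ P)
    obtain ⟨v, hv, rfl⟩ := Subgroup.relIndex_eq_one.1 (Nat.dvd_one.1 h4) hu
    exact congrArg Subtype.val (h2 v (fun k hk => (mem_centralizer_zpowers_iff.1 (h hk)).symm.eq) hv)
  have hfc : ∀ u ∈ P, Odd (fc 2 P e u) ∧ (fc 2 P e u = 1 ↔ u = 1) := fun u hu => by
    rw [fc_eq_of_comm hm hab hu, card_cls_eq (T := NP P e) inf_le_left hu, Subgroup.relIndex_eq_one]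
    exact ⟨Nat.not_even_iff_odd.1 fun h => hnd (h.two_dvd.trans (Subgroup.relIndex_dvd_of_le_left _
      (centralizer_anti (Subgroup.zpowers_le.2 hu)))), hfix u hu, by
        rintro rfl
        exact fun k _ => mem_centralizer_zpowers_iff.2 (Commute.one_left k)⟩
  have h1 := sum_eq_sum_fc (p := 2) (P := P) (e := e) (fun _ => (1 : ℕ)) fun _ _ _ _ _ => rfl
  simp only [Finset.sum_const, Finset.card_univ, smul_eq_mul, mul_one] at h1
  rw [← Nat.card_eq_fintype_card, h8, ← Finset.add_sum_erase _ _ one_mem_tv, (hfc 1 (one_mem _)).2.2 rfl] at h1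
  have h2 : ∀ r ∈ (tv 2 P e).erase 1, Odd (fc 2 P e r) ∧ 3 ≤ fc 2 P e r := fun r hr => by
    obtain ⟨⟨k, h⟩, h'⟩ := hfc r (mem_of_mem_tv (Finset.mem_of_mem_erase hr))
    have := mt h'.1 (Finset.ne_of_mem_erase hr)
    exact ⟨⟨k, h⟩, by omega⟩
  have h3 : _ ≤ ∑ r ∈ _, fc 2 P e r := Finset.card_nsmul_le_sum _ _ 3 fun r hr => (h2 r hr).2
  obtain ⟨u, hu⟩ : ∃ u, (tv 2 P e).erase 1 = {u} := by
    obtain h | h | h : ((tv 2 P e).erase 1).card = 0 ∨ ((tv 2 P e).erase 1).card = 1 ∨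
      ((tv 2 P e).erase 1).card = 2 := by rw [smul_eq_mul] at h3; omega
    · simp [Finset.card_eq_zero.1 h] at h1
    · exact Finset.card_eq_one.1 h
    obtain ⟨a, b, hab, h⟩ := Finset.card_eq_two.1 h
    rw [h] at h1 h2
    obtain ⟨k, hk⟩ := (h2 a (by simp)).1
    obtain ⟨k', hk'⟩ := (h2 b (by simp)).1
    rw [Finset.sum_pair hab] at h1
    omega
  have hu1 := hu.ge (Finset.mem_singleton_self u)
  have huP := mem_of_mem_tv (Finset.mem_of_mem_erase hu1)
  have h4 := card_eq_sum_rank_bu hB hm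
  rw [hk, ← Finset.add_sum_erase _ _ one_mem_tv, hu, Finset.sum_singleton, rank_bu_one hB hm, hl] at h4
  have hQ := Subgroup.zpowers_le.2 huP
  have := Fintype.ofFinite (𝐂 (𝐙 u))
  obtain ⟨z, hz, hz'⟩ : ∃ z ∈ P, z ∉ 𝐙 u := by
    by_contra! h
    have := rank_bq hm hab hQ (inf_le_right.trans (centralizer_anti h))
    change blockRank 2 (bu 2 P e u) = 1 at this
    omega
  have hR := sup_le hQ (Subgroup.zpowers_le.2 hz)
  have h5 := card_bound (isPBlock_bq hm.pair hQ) (isMax_bq hm hab hQ) (u := zu u)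
    (z := ⟨z, centralizer_anti hQ (hab hz)⟩) huP ⟨hz, subgroupOf_le_centralizer hab hz⟩
    (isSub_zu hm.pair huP).mem_center (fun h => Finset.ne_of_mem_erase hu1 (congrArg Subtype.val h))
    (fun ⟨k, h⟩ => hz' ⟨k, congrArg Subtype.val h⟩) (by
      rw [rank_bu_res hm.pair hab hQ hz]
      refine rank_bq hm hab hR fun t ht => ?_
      obtain ⟨n, hn, htn⟩ := hm.pow_mem hab ht.1
      refine mem_cent_of_index h8 ?_ ht.1.1 hn htn ht.2
      have a1 := Subgroup.card_mul_index ((𝐙 u ⊔ 𝐙 z).subgroupOf P)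
      rw [h8, card_subgroupOf' hR] at a1
      have a2 : Nat.card (𝐙 u) < Nat.card ↥(𝐙 u ⊔ 𝐙 z) := lt_of_not_ge fun h =>
        hz' (Subgroup.eq_of_le_of_card_ge le_sup_left h ▸ Subgroup.mem_sup_right (Subgroup.mem_zpowers z))
      have a3 : 1 < Nat.card (𝐙 u) := Nat.card_zpowers u ▸ lt_of_le_of_ne (orderOf_pos u)
        (Ne.symm (mt orderOf_eq_one_iff.1 (Finset.ne_of_mem_erase hu1)))
      have a4 := Nat.le_of_dvd (by norm_num) (Dvd.intro _ a1)
      rw [Subgroup.relIndex]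
      generalize Nat.card ↥(𝐙 u ⊔ 𝐙 z) = c at *
      generalize ((𝐙 u ⊔ 𝐙 z).subgroupOf P).index = i at *
      have : 3 ≤ c := by omega
      obtain rfl | rfl : i = 1 ∨ i = 2 := by interval_cases c <;> omega
      all_goals simp)
  rw [rank_bu_res hm.pair hab hQ huP, sup_idem, card_subgroupOf' (hab.trans (centralizer_anti hQ)), h8] at h5
  change blockRank 2 (bu 2 P e u) + blockRank 2 (bu 2 P e u) + 1 ≤ 8 at h5
  omega

end Cfsg.Agent.CK
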