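import Mathlib

/-!
Characters of algebras of dimension at most three and their cycles under an automorphism (`Tw.exists_char`).
-/

set_option autoImplicit false

namespace Cfsg.Agent.CK

open Module

variable {F : Type*} [Field F]

section Alg
variable {E : Type*} [Ring E] [Algebra F E] [Module.Finite F E]

lemma hom_one {k : ℕ} (hk : k = 1) : Nonempty (Matrix (Fin k) (Fin k) F →ₐ[F] F) := by
  subst hk
  exact ⟨{ toFun := fun M => M 0 0, map_one' := by simp, map_mul' := by simp [Matrix.mul_apply],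
           map_zero' := rfl, map_add' := fun _ _ => rfl, commutes' := by simp [Matrix.algebraMap_matrix_apply] }⟩

lemma exists_algHom [IsAlgClosed F] [Nontrivial E] (h : finrank F E ≤ 3) : Nonempty (E →ₐ[F] F) := by
  have : IsArtinianRing E := IsArtinianRing.of_finite F E
  have : IsSemisimpleRing (E ⧸ Ring.jacobson E) := IsSemiprimaryRing.isSemisimpleRing
  have hs := Ideal.Quotient.mkₐ_surjective F (Ring.jacobson E)
  have : Module.Finite F (E ⧸ Ring.jacobson E) := Module.Finite.of_surjective (Ideal.Quotient.mkₐ F _).toLinearMap hs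
  have : Nontrivial (E ⧸ Ring.jacobson E) := Ideal.Quotient.nontrivial_iff.2 (Ring.jacobson_lt_top E).ne
  obtain ⟨n, d, hd, ⟨e⟩⟩ := IsSemisimpleRing.exists_algEquiv_pi_matrix_of_isAlgClosed F (E ⧸ Ring.jacobson E)
  rcases n with _ | n
  · exact absurd e.toEquiv.subsingleton (not_subsingleton _)
  let f := (Pi.evalAlgHom F (fun i => Matrix (Fin (d i)) (Fin (d i)) F) 0).comp
    (e.toAlgHom.comp (Ideal.Quotient.mkₐ F _))
  have hf : Function.Surjective f := (Function.surjective_eval 0).comp (e.surjective.comp hs)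
  have h1 := (LinearMap.finrank_le_finrank_of_surjective (f := f.toLinearMap) hf).trans h
  rw [Module.finrank_matrix, Fintype.card_fin, finrank_self, mul_one] at h1
  have h2 : d 0 = 1 := by
    have := (hd 0).pos
    nlinarith
  exact (hom_one h2).map fun g => g.comp f

lemma char_cycle [IsAlgClosed F] [Nontrivial E] (h : finrank F E ≤ 3) (σ : E ≃ₐ[F] E) :
    ∃ χ : E →ₐ[F] F, (∀ x, χ (σ x) = χ x) ∨ ((∃ x, χ (σ x) ≠ χ x) ∧ ∀ x, χ (σ (σ x)) = χ x) ∨
      (finrank F E = 3 ∧ (∃ x, χ x + χ (σ x) + χ (σ (σ x)) ≠ 0) ∧ ∀ x, χ (σ (σ (σ x))) = χ x) := by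
  classical
  obtain ⟨χ⟩ := exists_algHom h
  refine ⟨χ, ?_⟩
  let τ : (E →ₐ[F] F) → (E →ₐ[F] F) := fun χ => χ.comp σ.toAlgHom
  have hτ : Function.Injective τ := fun a b e => AlgHom.ext fun x => by
    simpa [τ] using DFunLike.congr_fun e (σ.symm x)
  by_cases h1 : τ χ = χ
  · exact Or.inl (DFunLike.congr_fun h1)
  by_cases h2 : τ (τ χ) = χ
  · exact Or.inr (Or.inl ⟨by_contra fun e => h1 (AlgHom.ext fun x => not_not.1 (not_exists.1 e x)), DFunLike.congr_fun h2⟩)
  have h3 : τ (τ χ) ≠ τ χ := fun e => h1 (hτ e)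
  have hc := (card_algHom_le_finrank F E F)
  have := Fintype.ofFinite (E →ₐ[F] F)
  have h4 : ({χ, τ χ, τ (τ χ)} : Finset (E →ₐ[F] F)).card = 3 :=
    Finset.card_eq_three.2 ⟨_, _, _, Ne.symm h1, Ne.symm h2, h3.symm, rfl⟩
  have h5 := Finset.card_le_univ ({χ, τ χ, τ (τ χ)} : Finset (E →ₐ[F] F))
  rw [Nat.card_eq_fintype_card] at hc
  refine Or.inr (Or.inr ⟨by omega, by_contra fun e => ?_, DFunLike.congr_fun (?_ : τ (τ (τ χ)) = χ)⟩)
  · have h6 := linearIndependent_iff'.1 (linearIndependent_algHom_toLinearMap F E F) {χ, τ χ, τ (τ χ)} 1 (by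
      rw [Finset.sum_insert (by simp [Ne.symm h1, Ne.symm h2]), Finset.sum_pair h3.symm]
      ext x
      simpa [τ, add_assoc] using not_exists.1 e x) χ (by simp)
    simp at h6
  · have h6 : τ (τ (τ χ)) ∈ ({χ, τ χ, τ (τ χ)} : Finset (E →ₐ[F] F)) :=
      (Finset.eq_univ_of_card _ (by omega) : ({χ, τ χ, τ (τ χ)} : Finset (E →ₐ[F] F)) = _) ▸ Finset.mem_univ _
    simp only [Finset.mem_insert, Finset.mem_singleton] at h6
    exact (h6.resolve_right fun e => e.elim (fun e => h2 (hτ e)) fun e => h3 (hτ e))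

end Alg

variable {V : Type*} [AddCommGroup V] [Module F V]

/-- A twisted associative product with left unit `a`. -/
structure Tw (s : V →ₗ[F] V →ₗ[F] V) (a : V) (σ : V ≃ₗ[F] V) : Prop where
  left : ∀ y, s a y = y
  right : ∀ x, s x a = σ x
  assoc : ∀ x y z, s (s x y) z = s (σ x) (s y z)

variable {s : V →ₗ[F] V →ₗ[F] V} {a : V} {σ : V ≃ₗ[F] V}

lemma Tw.map (h : Tw s a σ) (x y : V) : σ (s x y) = s (σ x) (σ y) := by
  rw [← h.right, h.assoc, h.right]

lemma Tw.fix (h : Tw s a σ) : σ a = a := by rw [← h.right, h.left]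

lemma Tw.assoc' (h : Tw s a σ) (x y z : V) :
    s (σ.symm (s (σ.symm x) y)) z = s (σ.symm x) (s (σ.symm y) z) := by
  rw [show σ.symm (s (σ.symm x) y) = s (σ.symm (σ.symm x)) (σ.symm y) by
    rw [σ.symm_apply_eq, h.map]; simp, h.assoc, σ.apply_symm_apply]

lemma Tw.left' (h : Tw s a σ) (y : V) : s (σ.symm a) y = y := by
  rw [show σ.symm a = a by rw [σ.symm_apply_eq, h.fix], h.left]

/-- The untwisted algebra. -/
def Tw.Alg (_ : Tw s a σ) : Type _ := V

instance Tw.instRing (h : Tw s a σ) : Ring h.Alg :=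
  { (inferInstance : AddCommGroup V) with
    mul x y := s (σ.symm x) y
    one := a
    mul_assoc := h.assoc'
    one_mul := h.left'
    mul_one x := (h.right _).trans (σ.apply_symm_apply x)
    left_distrib := fun (x y z : V) => map_add (s (σ.symm x)) y z
    right_distrib := fun (x y z : V) => (by simp : s (σ.symm (x + y)) z = s (σ.symm x) z + s (σ.symm y) z)
    zero_mul := fun (y : V) => (by simp : s (σ.symm 0) y = 0)
    mul_zero x := map_zero (s (σ.symm x)) }

instance Tw.instModule (h : Tw s a σ) : Module F h.Alg := inferInstanceAs (Module F V)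

instance Tw.instAlgebra (h : Tw s a σ) : Algebra F h.Alg :=
  Algebra.ofModule (fun c (x y : V) => (by simp : s (σ.symm (c • x)) y = c • s (σ.symm x) y))
    fun c x y => map_smul (s (σ.symm x)) c y

theorem Tw.exists_char [IsAlgClosed F] [Module.Finite F V] [Nontrivial V] (h : Tw s a σ)
    (h3 : finrank F V ≤ 3) : ∃ χ : V →ₗ[F] F, χ a = 1 ∧ (∀ x y, χ (s x y) = χ (σ x) * χ y) ∧
      ((∀ x, χ (σ x) = χ x) ∨ ((∃ x, χ (σ x) ≠ χ x) ∧ ∀ x, χ (σ (σ x)) = χ x) ∨
      (finrank F V = 3 ∧ (∃ x, χ x + χ (σ x) + χ (σ (σ x)) ≠ 0) ∧ ∀ x, χ (σ (σ (σ x))) = χ x)) := by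
  have : Module.Finite F h.Alg := ‹_›
  have : Nontrivial h.Alg := ‹_›
  obtain ⟨χ, hχ⟩ := char_cycle (E := h.Alg) h3 (AlgEquiv.ofLinearEquiv σ h.fix fun (x y : V) =>
    (by rw [h.map]; simp : σ (s (σ.symm x) y) = s (σ.symm (σ x)) (σ y)))
  refine ⟨χ.toLinearMap, map_one χ, fun x y => ?_, hχ⟩
  exact (congrArg χ (by simp : s x y = s (σ.symm (σ x)) y)).trans
    (map_mul χ (show h.Alg from σ x) (show h.Alg from y))

end Cfsg.Agent.CK
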