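import Cfsg.Agent.CK.Sing
import Cfsg.Agent.BMod.SymLoc

/-!
The graded symmetric quotient of a symmetric local algebra satisfies `GS` (`gs`).
-/

set_option autoImplicit false
set_option linter.unusedSectionVars false

namespace Cfsg.Agent.CK

open Module Function Submodule BMod

variable {F : Type*} [Field F] {A : Type*} [Ring A] [Algebra F A] [Module.Finite F A]

/-- The section `P / (P ∩ N)`. -/
abbrev Q (P N : Submodule F A) : Type _ := ↥P ⧸ N.submoduleOf P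

variable {P N P' N' P'' N'' J : Submodule F A} {l : A →ₗ[F] F} {x y : A}

/-- The class of an element. -/
def Q.mk (N : Submodule F A) (x : A) (hx : x ∈ P) : Q P N := Submodule.Quotient.mk ⟨x, hx⟩

lemma Q.ind (q : Q P N) : ∃ x hx, Q.mk N x hx = q :=
  let ⟨x, h⟩ := Submodule.Quotient.mk_surjective _ q
  ⟨x.1, x.2, h⟩

lemma Q.mk_eq_zero {hx : x ∈ P} : Q.mk N x hx = 0 ↔ x ∈ N := Submodule.Quotient.mk_eq_zero _

lemma Q.mk_eq {hx : x ∈ P} {hy : y ∈ P} : Q.mk N x hx = Q.mk N y hy ↔ x - y ∈ N := Submodule.Quotient.eq _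

lemma Q.finrank_add (P N : Submodule F A) : finrank F (Q P N) + finrank F ↥(P ⊓ N) = finrank F P := by
  rw [← (N.submoduleOf P).finrank_quotient_add_finrank, ← map_comap_subtype, finrank_map_subtype_eq]
  rfl

lemma Q.finrank_le (h : P' ≤ P) (h' : P' ≤ N) : finrank F (Q P N) + finrank F P' ≤ finrank F P := by
  have := finrank_mono (le_inf h h')
  have := Q.finrank_add P N
  omega

lemma Q.eq_top {S : Submodule F (Q P N)}
    (h : ∀ T : Submodule F A, P ⊓ N ≤ T → (∀ x hx, Q.mk N x hx ∈ S → x ∈ T) → P ≤ T) : S = ⊤ :=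
  eq_top_iff.2 fun q _ => by
    obtain ⟨x, hx, rfl⟩ := q.ind
    obtain ⟨y, hy, rfl⟩ := h ((S.comap (mkQ _)).map P.subtype) (fun x hx => ⟨⟨x, hx.1⟩,
      ((Q.mk_eq_zero.2 hx.2).symm ▸ zero_mem S : Q.mk N x hx.1 ∈ S), rfl⟩)
      (fun x hx h => ⟨⟨x, hx⟩, h, rfl⟩) hx
    exact hy

/-- Multiplication of sections. -/
def Q.mul (h : ∀ x ∈ P, ∀ y ∈ P', x * y ∈ P'') (h1 : ∀ x ∈ N, ∀ y ∈ P', x * y ∈ N'')
    (h2 : ∀ x ∈ P, ∀ y ∈ N', x * y ∈ N'') : Q P N →ₗ[F] Q P' N' →ₗ[F] Q P'' N'' :=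
  LinearMap.liftQ₂ _ _ (LinearMap.mk₂ F (fun (x : P) (y : P') => Q.mk N'' (x * y) (h _ x.2 _ y.2))
    (fun x x' y => congrArg Submodule.Quotient.mk (Subtype.ext (add_mul x.1 x'.1 y.1)))
    (fun c x y => congrArg Submodule.Quotient.mk (Subtype.ext (smul_mul_assoc c x.1 y.1)))
    (fun x y y' => congrArg Submodule.Quotient.mk (Subtype.ext (mul_add x.1 y.1 y'.1)))
    (fun c x y => congrArg Submodule.Quotient.mk (Subtype.ext (mul_smul_comm c x.1 y.1))))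
    (fun x hx => LinearMap.ext fun y => Q.mk_eq_zero.2 (h1 _ hx _ y.2))
    fun y hy => LinearMap.ext fun x => Q.mk_eq_zero.2 (h2 _ x.2 _ hy)

variable (J l) in
/-- The annihilator of a power of the radical. -/
def ann (k : ℕ) : Submodule F A := (bf l).orthogonal (J ^ k)

lemma mul_mem_pow {i j k : ℕ} (e : i + j = k) (hx : x ∈ J ^ i) (hy : y ∈ J ^ j) : x * y ∈ J ^ k :=
  e ▸ pow_add J i j ▸ mul_mem_mul hx hy

lemma ann_mul (h : SymLoc J l) {j k k' : ℕ} (e : j + k = k') (hx : x ∈ ann J l k') (hy : y ∈ J ^ j) :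
    x * y ∈ ann J l k := fun w hw => by
  change l (w * (x * y)) = 0
  rw [← mul_assoc, h.symm, ← mul_assoc]
  exact hx _ (mul_mem_pow e hy hw)

lemma mul_ann {i k k' : ℕ} (e : k + i = k') (hx : x ∈ J ^ i) (hy : y ∈ ann J l k') :
    x * y ∈ ann J l k := fun w hw => by
  change l (w * (x * y)) = 0
  rw [← mul_assoc]
  exact hy _ (mul_mem_pow e hw hx)

lemma mem_ann {i k k' : ℕ} (e : k + i = k') (h : ∀ x ∈ J ^ i, x * y ∈ ann J l k) : y ∈ ann J l k' := by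
  subst e
  intro w hw
  rw [pow_add] at hw
  refine (mul_le.2 fun u hu x hx => ?_ : J ^ k * J ^ i ≤ LinearMap.ker (l ∘ₗ LinearMap.mulRight F y)) hw
  change l (u * x * y) = 0
  rw [mul_assoc]
  exact h x hx u hu

lemma pow_le_ann {i k N : ℕ} (e : k + i = N) (h : J ^ N = ⊥) : J ^ i ≤ ann J l k := fun x hx w hw => by
  change l (w * x) = 0
  rw [(mem_bot F).1 (h.le (mul_mem_pow e hw hx)), map_zero]

lemma inj_left (h : SymLoc J l) {i j k : ℕ} (e : i + j = k) {a u : A}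
    (H : ∀ x ∈ J ^ 2, ∃ y ∈ J ^ 1, a * y - x ∈ ann J l k) (hu : u ∈ J ^ i) (hua : u * a ∈ ann J l (j + 1)) :
    u ∈ ann J l (j + 2) := fun w hw => by
  rw [add_comm, pow_add] at hw
  refine (mul_le.2 fun x hx z hz => ?_ : J ^ 2 * J ^ j ≤ LinearMap.ker (l ∘ₗ LinearMap.mulRight F u)) hw
  change l (x * z * u) = 0
  obtain ⟨y, hy, hr⟩ := H x hx
  have h1 : l (_ * _) = 0 := hr _ (mul_mem_pow (add_comm j i ▸ e) hz hu)
  have h2 : l (_ * _) = 0 := hua _ (mul_mem_pow (add_comm _ _) hy hz)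
  rw [h.symm, sub_mul, map_sub, mul_assoc a, h.symm a] at h1
  simp only [mul_assoc] at h1 h2 ⊢
  rwa [h2, zero_sub, neg_eq_zero] at h1

lemma inj_right (h : SymLoc J l) {i j k : ℕ} (e : i + j = k) {a u : A}
    (H : ∀ x ∈ J ^ 2, ∃ y ∈ J ^ 1, y * a - x ∈ ann J l k) (hu : u ∈ J ^ i) (hua : a * u ∈ ann J l (j + 1)) :
    u ∈ ann J l (j + 2) := mem_ann rfl fun x hx z hz => by
  change l (z * (x * u)) = 0
  obtain ⟨y, hy, hr⟩ := H x hx
  have h1 : l (_ * _) = 0 := hr _ (mul_mem_pow e hu hz)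
  have h2 : l (_ * _) = 0 := hua _ (mul_mem_pow rfl hz hy)
  rw [mul_assoc, h.symm, mul_assoc, sub_mul, mul_sub, map_sub] at h1
  simp only [mul_assoc] at h1 h2 ⊢
  rwa [h2, zero_sub, neg_eq_zero] at h1

variable (J l) in
/-- The graded pieces. -/
abbrev Gr (i k : ℕ) : Type _ := Q (J ^ i) (ann J l k)

/-- Multiplication of the graded pieces. -/
def gmul (h : SymLoc J l) (i j k : ℕ) {i' k₁ k₂ : ℕ} (e : i + j = i') (e₁ : j + k = k₁) (e₂ : k + i = k₂) :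
    Gr J l i k₁ →ₗ[F] Gr J l j k₂ →ₗ[F] Gr J l i' k :=
  Q.mul (fun _ hx _ => mul_mem_pow e hx) (fun _ hx _ => ann_mul h e₁ hx) fun _ hx _ => mul_ann e₂ hx

lemma gmul_mk (h : SymLoc J l) {i j k i' k₁ k₂ : ℕ} (e : i + j = i') (e₁ : j + k = k₁) (e₂ : k + i = k₂)
    (hx : x ∈ J ^ i) (hy : y ∈ J ^ j) : gmul h i j k e e₁ e₂ (Q.mk _ x hx) (Q.mk _ y hy) =
      Q.mk _ (x * y) (mul_mem_pow e hx hy) := rfl

lemma gmul_nd (h : SymLoc J l) {i j k i' k₁ k₂ : ℕ} (e : i + j = i') (e₁ : j + k = k₁) (e₂ : k + i = k₂)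
    (u : Gr J l j k₂) (hu : ∀ x, gmul h i j k e e₁ e₂ x u = 0) : u = 0 := by
  obtain ⟨u, h1, rfl⟩ := u.ind
  exact Q.mk_eq_zero.2 (mem_ann e₂ fun x hx => Q.mk_eq_zero.1 (hu (Q.mk _ x hx)))

variable (h : SymLoc J l) (n : ℕ)

/-- Degree `(1, 1)`. -/
abbrev g11 : Gr J l 1 (n + 3) →ₗ[F] Gr J l 1 (n + 3) →ₗ[F] Gr J l 2 (n + 2) :=
  gmul h 1 1 (n + 2) rfl (by omega) rfl
/-- Degree `(1, 2)`. -/
abbrev g12 : Gr J l 1 (n + 3) →ₗ[F] Gr J l 2 (n + 2) →ₗ[F] Gr J l 3 (n + 1) :=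
  gmul h 1 2 (n + 1) rfl (by omega) rfl
/-- Degree `(2, 1)`. -/
abbrev g21 : Gr J l 1 (n + 3) →ₗ[F] Gr J l 2 (n + 2) →ₗ[F] Gr J l 3 (n + 1) :=
  (gmul h 2 1 (n + 1) rfl (by omega) rfl).flip
/-- Degree `(1, 3)`. -/
abbrev g13 : Gr J l 1 (n + 3) →ₗ[F] Gr J l 3 (n + 1) →ₗ[F] Gr J l 4 n :=
  gmul h 1 3 n rfl (by omega) rfl
/-- Degree `(3, 1)`. -/
abbrev g31 : Gr J l 1 (n + 3) →ₗ[F] Gr J l 3 (n + 1) →ₗ[F] Gr J l 4 n :=
  (gmul h 3 1 n rfl (by omega) rfl).flip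

lemma g_inj {a : Gr J l 1 (n + 3)} (ha : Surjective ((g11 h n).flip a)) {i j k i' : ℕ} (e : 1 + i = i')
    (e₁ : i + (j + 1) = n + 3) (e₂ : j + 1 + 1 = k) : Injective (gmul h 1 i (j + 1) e e₁ e₂ a) := by
  obtain ⟨a, h1, rfl⟩ := a.ind
  subst e₂
  refine (injective_iff_map_eq_zero _).2 fun u hu => ?_
  obtain ⟨u, h2, rfl⟩ := u.ind
  refine Q.mk_eq_zero.2 (inj_right h (by omega : i + j = n + 2) (fun x hx => ?_) h2 (Q.mk_eq_zero.1 hu))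
  obtain ⟨y, hy⟩ := ha (Q.mk _ x hx)
  obtain ⟨y, h3, rfl⟩ := y.ind
  exact ⟨y, h3, Q.mk_eq.1 hy⟩

theorem gs : GS (g11 h n) (g12 h n) (g21 h n) (g13 h n) (g31 h n) where
  as2 x y z := by
    obtain ⟨x, h1, rfl⟩ := x.ind
    obtain ⟨y, h2, rfl⟩ := y.ind
    obtain ⟨z, h3, rfl⟩ := z.ind
    exact congrArg Submodule.Quotient.mk (Subtype.ext (mul_assoc x y z).symm)
  as3 x z y := by
    obtain ⟨x, h1, rfl⟩ := x.ind
    obtain ⟨y, h2, rfl⟩ := y.ind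
    obtain ⟨z, h3, rfl⟩ := z.ind
    exact congrArg Submodule.Quotient.mk (Subtype.ext (mul_assoc x y z).symm)
  nd1 := gmul_nd h _ _ _
  nd2 := gmul_nd h _ _ _
  nd3 := gmul_nd h _ _ _
  span S hS := Q.eq_top fun T _ hT => (pow_add J 1 1).le.trans
    (mul_le.2 fun x hx y hy => hT _ _ (hS (Q.mk _ x hx) (Q.mk _ y hy)))
  hL a ha := by
    obtain ⟨a, h1, rfl⟩ := a.ind
    refine (injective_iff_map_eq_zero _).2 fun u hu => ?_
    obtain ⟨u, h2, rfl⟩ := u.ind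
    refine Q.mk_eq_zero.2 (inj_left h (by omega : 1 + (n + 1) = n + 2) (fun x hx => ?_) h2
      (Q.mk_eq_zero.1 hu))
    obtain ⟨y, hy⟩ := ha (Q.mk _ x hx)
    obtain ⟨y, h3, rfl⟩ := y.ind
    exact ⟨y, h3, Q.mk_eq.1 hy⟩
  hR a ha := ⟨g_inj h n ha _ _ _, g_inj h n ha _ _ _⟩

include h in
lemma nontrivial_gr (hn : J ^ (n + 4) ≠ ⊥) : Nontrivial (Gr J l 1 (n + 3)) := by
  by_contra! e
  refine hn (eq_bot_iff.2 fun w hw => h.nd w fun b => ?_)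
  refine (mul_le.2 fun u hu x hx => ?_ : J ^ (n + 3) * J ≤ LinearMap.ker l) (h.mul_top (n + 3)
    (mul_mem_mul hw trivial))
  exact Q.mk_eq_zero.1 (Subsingleton.elim (Q.mk (ann J l (n + 3)) x ((pow_one J).ge hx)) 0) u hu

variable (J) in
/-- Commutators of degree three. -/
def cs3 : Submodule F A := span F {z | ∃ x ∈ J, ∃ u ∈ J ^ 2, x * u - u * x = z}

variable {n}

lemma gr_c2 (hn : J ^ (n + 5) = ⊥) (h2 : J ^ 2 ≤ cs F A ⊔ J ^ 3) : C2 (g11 h n) := fun S hS =>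
  Q.eq_top fun T hT' hT => h2.trans (sup_le (h.cs_le fun x hx y hy => hT _ _
    (hS (Q.mk _ x ((pow_one J).ge hx)) (Q.mk _ y ((pow_one J).ge hy))))
    ((le_inf (h.pow_succ_le 1) (pow_le_ann rfl hn)).trans hT'))

lemma gr_c3 (hn : J ^ (n + 5) = ⊥) (h3 : J ^ 3 ≤ cs3 J ⊔ J ^ 4) : C3 (g12 h n) (g21 h n) := fun S hS =>
  Q.eq_top fun T hT' hT => h3.trans (sup_le (span_le.2 (by
    rintro _ ⟨x, hx, y, hy, rfl⟩
    exact hT _ _ (hS (Q.mk _ x ((pow_one J).ge hx)) (Q.mk _ y hy))))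
    ((le_inf (h.pow_succ_le 2) (pow_le_ann rfl hn)).trans hT'))

include h in
lemma finrank_gr {i k N : ℕ} (e : k + (i + 2) = N) (hn : J ^ N = ⊥) :
    finrank F (Gr J l (i + 1) k) + finrank F ↥(J ^ (i + 2)) ≤ finrank F ↥(J ^ (i + 1)) :=
  Q.finrank_le (h.pow_succ_le i) (pow_le_ann e hn)

include h in
lemma exists_top {k : ℕ} (hk : J ^ k ≠ ⊥) : ∃ n, J ^ (n + k) ≠ ⊥ ∧ J ^ (n + k + 1) = ⊥ := by
  obtain ⟨N, hN⟩ := h.nil
  by_contra! e
  have : ∀ n, J ^ (n + k) ≠ ⊥ := fun n => by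
    induction n with
    | zero => simpa
    | succ n ih => simpa [add_right_comm] using e n ih
  exact this N (by rw [pow_add, hN, bot_mul])

end Cfsg.Agent.CK
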