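import Cfsg.Agent.CK.Gr

/-!
Chlebowitz–Külshammer: a symmetric local algebra with centre of dimension at most five has dimension at
most eight (`finrank_le_eight`).
-/

set_option autoImplicit false
set_option linter.unusedSectionVars false

namespace Cfsg.Agent.CK

open Module Function Submodule BMod

variable {F : Type*} [Field F] {A : Type*} [Ring A] [Algebra F A] [Module.Finite F A]
variable {P P' W T J : Submodule F A} {l : A →ₗ[F] F} {a b c x y : A}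

lemma s1_le (ha : a ∈ W) (h : P ≤ W) : span F {a} ⊔ P ≤ W := sup_le ((span_singleton_le_iff_mem _ _).2 ha) h

lemma mem_s1 : a ∈ span F {a} ⊔ P := mem_sup_left (mem_span_singleton_self a)

lemma fr1 (a : A) (W : Submodule F A) : finrank F ↥(span F {a} ⊔ W) ≤ finrank F W + 1 := by
  by_cases h : a ∈ W
  · rw [sup_eq_right.2 ((span_singleton_le_iff_mem _ _).2 h)]; omega
  · rw [sup_comm, finrank_sup_span_singleton h]

lemma exists_span_three (h : W ≤ P) (h1 : finrank F P ≤ finrank F W + 3) :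
    ∃ a ∈ P, ∃ b ∈ P, ∃ c ∈ P, P ≤ span F {a} ⊔ (span F {b} ⊔ (span F {c} ⊔ W)) := by
  obtain ⟨c, hc, h2 | h2⟩ := exists_step h
  · exact ⟨0, zero_mem _, 0, zero_mem _, c, hc, h2.trans (le_sup_right.trans le_sup_right)⟩
  · obtain ⟨a, ha, b, hb, h3⟩ := exists_span_two (s1_le hc h) (by omega)
    exact ⟨a, ha, b, hb, c, hc, h3⟩

variable (T) in
/-- Elements whose commutator with `u` lies in `T`. -/
def cm (u : A) : Submodule F A := T.comap (LinearMap.mulLeft F u - LinearMap.mulRight F u)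

lemma mem_cm : y ∈ cm T x ↔ x * y - y * x ∈ T := Iff.rfl

lemma cm_symm (h : y ∈ cm T x) : x ∈ cm T y := by simpa [mem_cm] using neg_mem (mem_cm.1 h)

lemma cm_self : x ∈ cm T x := by simp [mem_cm]

lemma cm_mul (h1 : b * c ∈ cm T a) (h2 : c * a ∈ cm T b) : a * b ∈ cm T c :=
  cm_symm (by simpa [mem_cm, mul_assoc] using add_mem (mem_cm.1 h1) (mem_cm.1 h2))

lemma cm_pow {i j k : ℕ} (e : i + j = k) (hx : x ∈ J ^ i) (h : J ^ k ≤ T) : J ^ j ≤ cm T x :=
  fun _ hy => h (sub_mem (mul_mem_pow e hx hy) (mul_mem_pow (add_comm j i ▸ e) hy hx))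

lemma cs3_cm (hx : x ∈ J) (h : cs3 J ≤ T) : J ^ 2 ≤ cm T x := fun y hy => h (subset_span ⟨x, hx, y, hy, rfl⟩)

lemma cs3_le : cs3 J ≤ J ^ 3 := span_le.2 (by
  rintro _ ⟨x, hx, y, hy, rfl⟩
  exact cm_pow (i := 1) rfl ((pow_one J).ge hx) le_rfl hy)

lemma cs_le_three (h : SymLoc J l) (ha : a ∈ J) (hb : b ∈ J) (hc : c ∈ J)
    (hJ : J ≤ span F {a} ⊔ (span F {b} ⊔ (span F {c} ⊔ J ^ 2))) (h1 : b ∈ cm T a) (h2 : c ∈ cm T a)
    (h3 : c ∈ cm T b) (h4 : cs3 J ≤ T) : cs F A ≤ T :=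
  h.cs_le fun _ hx _ hy => hJ.trans (s1_le
    (cm_symm (hJ.trans (s1_le cm_self (s1_le h1 (s1_le h2 (cs3_cm ha h4)))) hx)) (s1_le
    (cm_symm (hJ.trans (s1_le (cm_symm h1) (s1_le cm_self (s1_le h3 (cs3_cm hb h4)))) hx)) (s1_le
    (cm_symm (hJ.trans (s1_le (cm_symm h2) (s1_le (cm_symm h3) (s1_le cm_self (cs3_cm hc h4)))) hx))
    (cs3_cm hx h4)))) hy

lemma pow_step {i : ℕ} (ha : a ∈ J ^ i) (hb : b ∈ J ^ i) (hJ : J ≤ span F {x} ⊔ (span F {y} ⊔ J ^ 2))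
    (hi : J ^ i ≤ span F {a} ⊔ (span F {b} ⊔ J ^ (i + 1))) (h1 : a * x ∈ W) (h2 : a * y ∈ W) (h3 : b * x ∈ W)
    (h4 : b * y ∈ W) (h5 : J ^ (i + 2) ≤ W) : J ^ (i + 1) ≤ W :=
  mul_le.2 fun _ hu w hw => (hi.trans (s1_le
    ((hJ.trans (s1_le h1 (s1_le h2 fun _ h => h5 (mul_mem_pow rfl ha h))) :
      J ≤ W.comap (LinearMap.mulLeft F a)) hw) (s1_le
    ((hJ.trans (s1_le h3 (s1_le h4 fun _ h => h5 (mul_mem_pow rfl hb h))) :
      J ≤ W.comap (LinearMap.mulLeft F b)) hw) fun _ h => h5 (mul_mem_mul h hw))) :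
    J ^ i ≤ W.comap (LinearMap.mulRight F w)) hu

lemma cs_le_four (h : SymLoc J l) (hx : x ∈ J) (hy : y ∈ J) (hJ : J ≤ span F {x} ⊔ (span F {y} ⊔ J ^ 2))
    (hxx : x * x ∈ J ^ 3) (hyy : y * y ∈ J ^ 3) (h1 : y ∈ cm T x) (h2 : y * x ∈ cm T x)
    (h3 : x * y ∈ cm T y) (h4 : y * x * y ∈ cm T x) (h5 : J ^ 5 ≤ T) : cs F A ≤ T := by
  have x1 := (pow_one J).ge hx
  have y1 := (pow_one J).ge hy
  have xy := mul_mem_pow rfl x1 y1
  have yx := mul_mem_pow rfl y1 x1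
  have j2 : J ^ 2 ≤ span F {x * y} ⊔ (span F {y * x} ⊔ J ^ 3) :=
    pow_step x1 y1 hJ ((pow_one J).le.trans hJ) (mem_sup_right (mem_sup_right hxx)) mem_s1
      (mem_sup_right mem_s1) (mem_sup_right (mem_sup_right hyy)) (le_sup_right.trans le_sup_right)
  have j3 : J ^ 3 ≤ span F {x * y * x} ⊔ (span F {y * x * y} ⊔ J ^ 4) :=
    pow_step xy yx hJ j2 mem_s1 (mem_sup_right (mem_sup_right (mul_assoc x y y ▸ mul_mem_pow rfl x1 hyy)))
      (mem_sup_right (mem_sup_right (mul_assoc y x x ▸ mul_mem_pow rfl y1 hxx)))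
      (mem_sup_right mem_s1) (le_sup_right.trans le_sup_right)
  have x3 : J ^ 3 ≤ cm T x := j3.trans (s1_le (mem_cm.2 (h5 (by
    simpa only [mul_assoc] using sub_mem (mul_mem_pow (k := 5) rfl hxx yx) (mul_mem_pow rfl xy hxx))))
    (s1_le h4 (cm_pow rfl x1 h5)))
  have y3 : J ^ 3 ≤ cm T y := j3.trans (s1_le (by simpa only [mem_cm, mul_assoc] using cm_symm h4)
    (s1_le (mem_cm.2 (h5 (by
      simpa only [mul_assoc] using sub_mem (mul_mem_pow (k := 5) rfl hyy xy) (mul_mem_pow rfl yx hyy))))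
      (cm_pow rfl y1 h5)))
  have x2 : J ^ 2 ≤ cm T x := j2.trans (s1_le (by
    simpa [mem_cm, mul_assoc] using sub_mem (mem_cm.1 (cm_symm (y3 hxx))) (mem_cm.1 h2)) (s1_le h2 x3))
  have y2 : J ^ 2 ≤ cm T y := j2.trans (s1_le h3 (s1_le (by
    simpa [mem_cm, mul_assoc] using sub_mem (mem_cm.1 (cm_symm (x3 hyy))) (mem_cm.1 h3)) y3))
  have z2 : ∀ w ∈ J ^ 2, J ^ 2 ≤ cm T w := fun w hw => j2.trans (s1_le
    (cm_mul (x3 (mul_mem_pow rfl y1 hw)) (y3 (mul_mem_pow rfl hw x1))) (s1_le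
    (cm_mul (y3 (mul_mem_pow rfl x1 hw)) (x3 (mul_mem_pow rfl hw y1))) (cm_pow rfl hw h5)))
  exact h.cs_le fun _ hu _ hw => hJ.trans (s1_le (cm_symm (hJ.trans (s1_le cm_self (s1_le h1 x2)) hu))
    (s1_le (cm_symm (hJ.trans (s1_le (cm_symm h1) (s1_le cm_self y2)) hu)) fun w hw => cm_symm
      (hJ.trans (s1_le (cm_symm (x2 hw)) (s1_le (cm_symm (y2 hw)) (z2 w hw))) hu))) hw

lemma sq_le_center (h : SymLoc J l) (hx : x ∈ J) (h2 : J ^ 2 ≤ span F {x * x} ⊔ J ^ 3) :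
    J ^ 2 ≤ (Subalgebra.center F A).toSubmodule := by
  have h1 : ∀ n, J ^ (n + 2) ≤ span F {x ^ (n + 2)} ⊔ J ^ (n + 3) := fun n => by
    induction n with
    | zero => simpa [pow_two] using h2
    | succ n ih =>
      refine mul_le.2 fun _ hu w hw => (ih.trans (s1_le ?_ fun _ h => mem_sup_right (mul_mem_mul h hw)) :
        J ^ (n + 2) ≤ (span F {x ^ (n + 3)} ⊔ J ^ (n + 4)).comap (LinearMap.mulRight F w)) hu
      have := (h2.trans (s1_le (by simpa [pow_succ, mul_assoc] using mem_s1) fun _ h => mem_sup_right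
        (mul_mem_pow (by omega) (pow_mem_pow J hx (n + 1)) h)) : J ^ 2 ≤ (span F {x ^ (n + 3)} ⊔ J ^ (n + 4)).comap
          (LinearMap.mulLeft F (x ^ (n + 1)))) (pow_two J ▸ mul_mem_mul hx hw)
      simpa [pow_succ x (n + 1), mul_assoc] using this
  have h3 : ∀ w ∈ J ^ 2, ∃ s ∈ Algebra.adjoin F {x}, s * (x * x) = w :=
    h.le_of_step (W := (Algebra.adjoin F {x}).toSubmodule.map (LinearMap.mulRight F (x * x))) 2 fun n hn => by
      obtain ⟨n, rfl⟩ := Nat.exists_eq_add_of_le' hn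
      exact (h1 n).trans (s1_le (mem_sup_left ⟨x ^ n, pow_mem (Algebra.self_mem_adjoin_singleton F x) n,
        by simp [pow_succ, mul_assoc]⟩) le_sup_right)
  have hc : ∀ s ∈ Algebra.adjoin F {x}, ∀ z, Commute z x → Commute z s := fun s hs z hz =>
    Algebra.commute_of_mem_adjoin_singleton_of_commute hs hz
  have h4 : ∀ y ∈ J, Commute y x := fun y hy => by
    obtain ⟨s, hs, e⟩ := h3 _ (pow_two J ▸ mul_mem_mul hx hy)
    have e1 : x * (y - s * x) = 0 := by rw [mul_sub, ← e, ← mul_assoc x, (hc s hs x rfl).eq, mul_assoc, sub_self]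
    have e2 : (y - s * x) * x = y * x - x * y := by rw [sub_mul, ← e, mul_assoc]
    obtain ⟨s', hs', e'⟩ := h3 _ (h.cs_le_sq (commutator_mem_cs y x))
    refine sub_eq_zero.1 (h.nd _ fun b => ?_)
    obtain ⟨d, hd⟩ := h.loc b
    obtain ⟨t, ht, e''⟩ := h3 _ (pow_two J ▸ mul_mem_mul hx hd)
    have e3 : (y * x - x * y) * (b - d • 1) = 0 := by
      have c1 : Commute (s' * x) t := hc t ht _ ((hc s' hs' x rfl).symm.mul_left rfl)
      calc _ = s' * x * (t * (x * x)) := by rw [← e', e'']; simp only [mul_assoc]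
        _ = t * x * (s' * (x * x)) := by
          rw [← mul_assoc, c1.eq, mul_assoc t x, ← mul_assoc x, (hc s' hs' x rfl).eq]
          simp only [mul_assoc]
        _ = 0 := by rw [e', ← e2, mul_assoc, ← mul_assoc x, e1, zero_mul, mul_zero]
    rw [mul_sub, sub_eq_zero] at e3
    rw [e3, mul_smul_comm, mul_one, map_smul, h.map_cs (commutator_mem_cs y x), smul_zero]
  intro w hw
  obtain ⟨s, hs, rfl⟩ := h3 w hw
  refine (Subalgebra.mem_toSubmodule _).2 (Subalgebra.mem_center_iff.2 fun b => ?_)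
  obtain ⟨d, hd⟩ := h.loc b
  have h5 : Commute b x := by simpa using (h4 _ hd).add_left ((Commute.one_left x).smul_left d)
  exact ((hc s hs b h5).mul_right (h5.mul_right h5)).eq

lemma cube_bot (h : SymLoc J l) (ha : a ∈ J) (hb : b ∈ J) (hJ : J ≤ span F {a} ⊔ (span F {b} ⊔ J ^ 2))
    (hs : ∀ x ∈ J, x * x ∈ J ^ 3) : J ^ 3 = ⊥ := by
  have a1 := (pow_one J).ge ha
  have b1 := (pow_one J).ge hb
  have e : a * b + b * a ∈ J ^ 3 := by
    convert sub_mem (sub_mem (hs _ (add_mem ha hb)) (hs a ha)) (hs b hb) using 1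
    noncomm_ring
  have j2 : J ^ 2 ≤ span F {a * b} ⊔ (span F {0} ⊔ J ^ 3) :=
    pow_step a1 b1 hJ ((pow_one J).le.trans hJ) (mem_sup_right (mem_sup_right (hs a ha))) mem_s1
      (add_sub_cancel_left (a * b) (b * a) ▸ sub_mem (mem_sup_right (mem_sup_right e)) mem_s1)
      (mem_sup_right (mem_sup_right (hs b hb))) (le_sup_right.trans le_sup_right)
  refine h.eq_bot 3 (pow_step (mul_mem_pow rfl a1 b1) (zero_mem _) hJ j2 ?_
    (mul_assoc a b b ▸ mul_mem_pow (k := 4) rfl a1 (hs b hb)) (by simp) (by simp) le_rfl)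
  simpa [mul_add, mul_assoc] using sub_mem (mul_mem_pow (k := 4) rfl a1 e) (mul_mem_pow rfl (hs a ha) b1)

theorem finrank_le_eight [IsAlgClosed F] (h : SymLoc J l) (h5 : finrank F (Subalgebra.center F A) ≤ 5) :
    finrank F A ≤ 8 := by
  nontriviality A
  have hZ := h.finrank_center
  have hA := h.finrank_eq
  have hc : cs F A = ⊥ → finrank F A ≤ 8 := fun e => by
    rw [e, finrank_bot] at hZ
    omega
  by_cases h3 : J ^ 3 = ⊥
  · exact hc (h.cs_eq_bot h3)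
  have h2 := h.two_add_le fun h2 => h3 (by rw [pow_succ, h2, bot_mul])
  by_cases h1 : finrank F J ≤ finrank F ↥(J ^ 2) + 1
  · obtain ⟨a, ha, hJ⟩ := exists_span_one (h.pow_le 1) h1
    exact hc (eq_bot_iff.2 (h.cs_le fun x _ y _ => sub_eq_zero.2 (h.comm_of_span_one ha hJ x y)))
  have ho : ∀ {i k N : ℕ}, k + i = N → J ^ N = ⊥ → finrank F ↥(J ^ i) + finrank F ↥(J ^ k) ≤ finrank F A :=
    fun {i k N} e hN => h.finrank_orth (J ^ k) ▸ Nat.add_le_add_right (finrank_mono (pow_le_ann e hN)) _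
  have hK : ∀ (n : ℕ) {T : Submodule F A}, J ^ (n + 1) ≠ ⊥ → cs F A ≤ T → J ^ (n + 1) ≤ T →
      finrank F (cs F A) < finrank F T := fun n T h1 h2 h3 =>
    finrank_lt_finrank_of_lt ((h.cs_lt h1).trans_le (sup_le h2 h3))
  have c34 : cs3 J ⊔ J ^ 4 ≤ J ^ 3 := sup_le cs3_le (h.pow_succ_le 2)
  have d1 : finrank F ↥(J ^ 1) = finrank F J := by rw [pow_one]
  by_cases hn : finrank F J ≤ finrank F ↥(J ^ 2) + 2
  · obtain ⟨a, ha, b, hb, hJ⟩ := exists_span_two (W := J ^ 2) (h.pow_le 1) hn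
    by_cases h23 : finrank F ↥(J ^ 2) ≤ finrank F ↥(J ^ 3) + 1
    · obtain ⟨x, hx, hx'⟩ : ∃ x ∈ J, x * x ∉ J ^ 3 := by_contra fun e =>
        h3 (cube_bot h ha hb hJ (by simpa using e))
      have := finrank_mono (sq_le_center h hx (eq_of_le_of_finrank_le (s1_le (pow_two J ▸ mul_mem_mul hx hx)
        (h.pow_succ_le 1)) (by rwa [sup_comm, finrank_sup_span_singleton hx'])).ge)
      change _ ≤ finrank F (Subalgebra.center F A) at this
      omega
    by_cases h5' : J ^ 5 = ⊥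
    · have := ho (i := 3) (k := 2) rfl h5'
      have := hK 2 h3 (h.cs_le_span ha hb hJ) le_sup_right
      have := fr1 (a * b - b * a) (J ^ 3)
      omega
    exfalso
    obtain ⟨n, hn1, hn2⟩ := exists_top h h5'
    have := nontrivial_gr h (n + 1) hn1
    have k1 := hK 2 h3 (h.cs_le_span ha hb hJ) le_sup_right
    have k2 := fr1 (a * b - b * a) (J ^ 3)
    have k3 := hK 4 h5' (cs_le_three (T := span F {a * b - b * a} ⊔ (cs3 J ⊔ J ^ 4)) h ha hb (zero_mem _)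
      (by simpa using hJ) mem_s1 (zero_mem _) (zero_mem _) (le_sup_left.trans le_sup_right))
      ((h.pow_succ_le 3).trans (le_sup_right.trans le_sup_right))
    have k4 := fr1 (a * b - b * a) (cs3 J ⊔ J ^ 4)
    have g1 : finrank F (Gr J l 1 (n + 1 + 3)) + finrank F ↥(J ^ 2) ≤ finrank F ↥(J ^ 1) :=
      finrank_gr h rfl hn2
    have g2 : finrank F (Gr J l 2 (n + 1 + 2)) + finrank F ↥(J ^ 3) ≤ finrank F ↥(J ^ 2) :=
      finrank_gr h rfl hn2
    have g3 : finrank F (Gr J l 3 (n + 1 + 1)) + finrank F ↥(J ^ 4) ≤ finrank F ↥(J ^ 3) :=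
      finrank_gr h rfl hn2
    have g4 : finrank F (Gr J l 4 (n + 1)) + finrank F ↥(J ^ 5) ≤ finrank F ↥(J ^ 4) :=
      finrank_gr h rfl hn2
    refine (gs h (n + 1)).two (by omega) (by omega) (gr_c3 h hn2 (eq_of_le_of_finrank_le c34 (by omega)).ge)
      (fun a ha => g_inj h (n + 1) ha (j := n) _ _ _) fun x y hs hx hy e1 e2 => ?_
    obtain ⟨x, x1, rfl⟩ := x.ind
    obtain ⟨y, y1, rfl⟩ := y.ind
    have f1 := Q.finrank_add (J ^ 1) (ann J l (n + 1 + 3))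
    have f2 := Q.finrank_add (J ^ 2) (ann J l (n + 1 + 2))
    have f3 : J ^ 1 ⊓ ann J l (n + 1 + 3) ≤ J ^ 2 :=
      (eq_of_le_of_finrank_le (le_inf (h.pow_succ_le 0) (pow_le_ann rfl hn2) : J ^ 2 ≤ J ^ 1 ⊓ ann J l (n + 1 + 3))
        (by change finrank F (Q _ _) = 2 at e1; omega)).ge
    have f4 : J ^ 2 ⊓ ann J l (n + 1 + 2) ≤ J ^ 3 :=
      (eq_of_le_of_finrank_le (le_inf (h.pow_succ_le 1) (pow_le_ann rfl hn2) : J ^ 3 ≤ J ^ 2 ⊓ ann J l (n + 1 + 2))
        (by change finrank F (Q _ _) = 2 at e2; omega)).ge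
    have k5 := hK 4 h5' (cs_le_four (T := span F {x * y - y * x} ⊔ (span F {x * (y * x) - y * x * x} ⊔
      (span F {y * (x * y) - x * y * y} ⊔ (span F {x * (y * x * y) - y * x * y * x} ⊔ J ^ 5)))) h
      ((pow_one J).le x1) ((pow_one J).le y1) (fun v hv => by
        obtain ⟨c, d, e⟩ := hs (Q.mk _ v ((pow_one J).ge hv))
        have e1 := add_mem (smul_mem _ c x1) (smul_mem _ d y1)
        have := f3 ⟨sub_mem ((pow_one J).ge hv) e1, Q.mk_eq.1 (e.symm : _ = Q.mk _ _ e1)⟩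
        exact sub_add_cancel v (c • x + d • y) ▸ add_mem (mem_sup_right (mem_sup_right this))
          (add_mem (smul_mem _ c mem_s1) (smul_mem _ d (mem_sup_right mem_s1))))
      (f4 ⟨mul_mem_pow rfl x1 x1, Q.mk_eq_zero.1 hx⟩) (f4 ⟨mul_mem_pow rfl y1 y1, Q.mk_eq_zero.1 hy⟩)
      mem_s1 (mem_sup_right mem_s1) (mem_sup_right (mem_sup_right mem_s1))
      (mem_sup_right (mem_sup_right (mem_sup_right mem_s1)))
      (le_sup_of_le_right (le_sup_of_le_right (le_sup_of_le_right le_sup_right))))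
      (le_sup_of_le_right (le_sup_of_le_right (le_sup_of_le_right le_sup_right)))
    replace k5 := k5.trans_le ((fr1 _ _).trans (Nat.succ_le_succ ((fr1 _ _).trans (Nat.succ_le_succ
      ((fr1 _ _).trans (Nat.succ_le_succ (fr1 _ _)))))))
    omega
  obtain ⟨a, ha, b, hb, c, hc, hJ⟩ := exists_span_three (W := J ^ 2) (h.pow_le 1) (by omega)
  have k : ∀ (n : ℕ) (T : Submodule F A), J ^ (n + 1) ≠ ⊥ → cs3 J ≤ T → J ^ (n + 1) ≤ T →
      finrank F ↥(J ^ 2) ≤ finrank F T + 3 := fun n T h1 h2 h3 => by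
    have := (hK n h1 (cs_le_three (T := span F {a * b - b * a} ⊔ (span F {a * c - c * a} ⊔
      (span F {b * c - c * b} ⊔ T))) h ha hb hc hJ mem_s1 (mem_sup_right mem_s1)
      (mem_sup_right (mem_sup_right mem_s1)) (le_sup_of_le_right (le_sup_of_le_right (le_sup_of_le_right h2))))
      (le_sup_of_le_right (le_sup_of_le_right (le_sup_of_le_right h3)))).trans_le
      ((fr1 _ _).trans (Nat.succ_le_succ ((fr1 _ _).trans (Nat.succ_le_succ (fr1 _ _)))))
    omega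
  by_cases h4 : J ^ 4 = ⊥
  · have := ho (i := 3) (k := 1) rfl h4
    have := k 2 (J ^ 3) h3 cs3_le le_rfl
    omega
  exfalso
  obtain ⟨n, hn1, hn2⟩ := exists_top h h4
  have := nontrivial_gr h n hn1
  have g1 : finrank F (Gr J l 1 (n + 3)) + finrank F ↥(J ^ 2) ≤ finrank F ↥(J ^ 1) := finrank_gr h rfl hn2
  have g2 : finrank F (Gr J l 2 (n + 2)) + finrank F ↥(J ^ 3) ≤ finrank F ↥(J ^ 2) := finrank_gr h rfl hn2
  have k1 := hK 2 (T := cs F A ⊔ J ^ 3) h3 le_sup_left le_sup_right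
  have k2 := k 3 (cs3 J ⊔ J ^ 4) h4 le_sup_left le_sup_right
  exact (gs h n).three (by omega) (gr_c2 h hn2 (eq_of_le_of_finrank_le
    (sup_le h.cs_le_sq (h.pow_succ_le 1) : cs F A ⊔ J ^ 3 ≤ J ^ 2) (by omega)).ge) fun e => gr_c3 h hn2 (eq_of_le_of_finrank_le c34 (by omega)).ge

end Cfsg.Agent.CK
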