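import Cfsg.Agent.CK.Abs

/-!
Graded symmetric algebras on at most three generators whose degree two part is spanned by commutators do
not exist (`GS.three`): the case where no left multiplication is surjective.
-/

set_option autoImplicit false

namespace Cfsg.Agent.CK

open Module Function Submodule

variable {F V W₂ W₃ W₄ : Type*} [Field F] [AddCommGroup V] [Module F V] [AddCommGroup W₂] [Module F W₂]
  [AddCommGroup W₃] [Module F W₃] [AddCommGroup W₄] [Module F W₄]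

variable (F) in
/-- Three spanning vectors. -/
def Sp3 (x y z : V) : Prop := ∀ v, ∃ c d e : F, c • x + d • y + e • z = v

lemma mem_range2 {x y v : V} : v ∈ span F (Set.range ![x, y]) ↔ ∃ c d : F, c • x + d • y = v := by
  simp only [Matrix.range_cons, Matrix.range_empty, Set.union_empty, Set.singleton_union, mem_span_pair]

lemma sp3_iff {x y z : V} : Sp3 F x y z ↔ span F (Set.range ![x, y, z]) = ⊤ := by
  simp only [Sp3, eq_top_iff', Matrix.range_cons, Matrix.range_empty, Set.union_empty, Set.singleton_union,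
    mem_span_triple]

lemma Sp3.finrank_le {x y z : V} (h : Sp3 F x y z) : finrank F V ≤ 3 := by
  simpa using finrank_le_of_span_eq_top (sp3_iff.1 h)

lemma Sp3.finrank_le_two {x z : V} (h : Sp3 F x 0 z) : finrank F V ≤ 2 := by
  simpa using finrank_le_of_span_eq_top (v := ![x, z]) (by
    simpa only [eq_top_iff', mem_range2, Sp3, smul_zero, add_zero, exists_const] using h)

lemma exists_sp3 [Module.Finite F V] (h3 : finrank F V ≤ 3) {x y : V} (li : LinearIndependent F ![x, y]) :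
    ∃ z, Sp3 F x y z := by
  by_cases h : ∀ z, z ∈ span F (Set.range ![x, y])
  · exact ⟨0, by simpa only [Sp3, mem_range2, smul_zero, add_zero, exists_const] using h⟩
  obtain ⟨z, hz⟩ := not_forall.1 h
  have l3 : LinearIndependent F ![z, x, y] := li.finCons hz
  refine ⟨z, fun v => ?_⟩
  obtain ⟨c, d, e, h⟩ := sp3_iff.2
    (l3.span_eq_top_of_card_eq_finrank (l3.fintype_card_le_finrank.antisymm (by simpa))) v
  exact ⟨d, e, c, by rw [← h]; abel⟩

lemma poly3 [Infinite F] {c₀ c₁ c₂ c₃ : F} (h : ∀ s, c₀ + c₁ * s + c₂ * s ^ 2 + c₃ * s ^ 3 = 0) :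
    c₀ = 0 ∧ c₁ = 0 ∧ c₂ = 0 ∧ c₃ = 0 := by
  have : Polynomial.C c₀ + Polynomial.C c₁ * .X + Polynomial.C c₂ * .X ^ 2 + Polynomial.C c₃ * .X ^ 3 = 0 :=
    Polynomial.funext (by simpa)
  have h1 := fun i => congrArg (Polynomial.coeff · i) this
  exact ⟨by simpa using h1 0, by simpa using h1 1, by simpa [Polynomial.coeff_X] using h1 2,
    by simpa [Polynomial.coeff_X] using h1 3⟩

lemma alt4 [Module.Finite F V] (h3 : finrank F V ≤ 3) (T : V →ₗ[F] V →ₗ[F] V →ₗ[F] V →ₗ[F] W₄)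
    (h12 : ∀ a c d, T a a c d = 0) (h23 : ∀ a b d, T a b b d = 0) (h34 : ∀ a b c, T a b c c = 0)
    (a b c d : V) : T a b c d = 0 := by
  have s12 : ∀ a b c d, T a b c d = - T b a c d := fun a b c d => eq_neg_of_add_eq_zero_left (by
    simpa [h12, add_comm] using h12 (a + b) c d)
  have s23 : ∀ a b c d, T a b c d = - T a c b d := fun a b c d => eq_neg_of_add_eq_zero_left (by
    simpa [h23, add_comm] using h23 a (b + c) d)
  have h13 : ∀ a b d, T a b a d = 0 := fun a b d => by rw [s12, h23, neg_zero]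
  have h24 : ∀ a b c, T a b c b = 0 := fun a b d => by rw [s23, h34, neg_zero]
  have h14 : ∀ a b c, T a b c a = 0 := fun a b d => by rw [s12, h24, neg_zero]
  obtain ⟨g, hg, i, hi⟩ := Fintype.not_linearIndependent_iff.1 fun li : LinearIndependent F ![a, b, c, d] => by
    simpa using li.fintype_card_le_finrank.trans h3
  simp only [Fin.sum_univ_four, Matrix.cons_val] at hg
  refine (smul_eq_zero.1 ?_).resolve_left hi
  fin_cases i
  · simpa [h12, h13, h14] using congrArg (T · b c d) hg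
  · simpa [h12, h23, h24] using congrArg (T a · c d) hg
  · simpa [h13, h23, h34] using congrArg (T a b · d) hg
  · simpa [h14, h24, h34] using congrArg (T a b c ·) hg

variable {m : V →ₗ[F] V →ₗ[F] W₂} {L R : V →ₗ[F] W₂ →ₗ[F] W₃} {L₃ R₃ : V →ₗ[F] W₃ →ₗ[F] W₄}

lemma C2.sp3 (c2 : C2 m) {x y z : V} (h : Sp3 F x y z) :
    Sp3 F (m x y - m y x) (m x z - m z x) (m y z - m z y) := fun u =>
  mem_span_triple.1 ((c2 _ fun v w => mem_span_triple.2 (by
    obtain ⟨c, d, e, rfl⟩ := h v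
    obtain ⟨c', d', e', rfl⟩ := h w
    refine ⟨c * d' - d * c', c * e' - e * c', d * e' - e * d', ?_⟩
    simp only [map_add, map_smul, LinearMap.add_apply, LinearMap.smul_apply]
    module)).ge trivial)

lemma GS.no_skew [Module.Finite F V] [Nontrivial V] (h : GS m L R L₃ R₃) (h3 : finrank F V ≤ 3)
    (k : V →ₗ[F] V) (hk : Surjective k) (h0 : ∀ v, m v (k v) = 0) : False := by
  obtain ⟨w, hw⟩ := exists_ne (0 : V)
  refine hw (h.nd1 w fun z => h.nd2 _ fun y => h.nd3 _ fun x => ?_)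
  obtain ⟨y, rfl⟩ := hk y
  obtain ⟨z, rfl⟩ := (hk.comp hk) z
  obtain ⟨w, rfl⟩ := (hk.comp (hk.comp hk)) w
  exact alt4 h3 (LinearMap.mk₂ F (fun a b => (m.compl₁₂ (k ∘ₗ k) (k ∘ₗ k ∘ₗ k)).compr₂ (L₃ a ∘ₗ L (k b)))
    (by intros; ext; simp) (by intros; ext; simp) (by intros; ext; simp) (by intros; ext; simp))
    (fun a c d => by simp; rw [h.as2, h.as3, h.as2, h0]; simp) (fun a c d => by simp [h.as2, h0])
    (fun a c d => by simp [h0]) x y z w

lemma sing_setup [Infinite F] [Module.Finite F W₂] (hW : finrank F W₂ ≤ 3) (hs : ∀ a, ¬ Surjective (m a))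
    {a v₁ v₂ y : V} (li : LinearIndependent F ![m a v₁, m a v₂]) (hy : m a y = 0) :
    ∃ f₀ f₁ f₂ : W₂ →ₗ[F] F, LinearMap.ker f₀ ≠ ⊤ ∧ 2 < finrank F W₂ ∧
      (∀ u, f₀ u = 0 → f₁ u • m a v₁ + f₂ u • m a v₂ = u) ∧
      (f₀ (m a v₁) = 0 ∧ f₁ (m a v₁) = 1 ∧ f₂ (m a v₁) = 0 ∧ f₀ (m a v₂) = 0 ∧ f₁ (m a v₂) = 0 ∧
        f₂ (m a v₂) = 1) ∧ ∀ b, f₀ (m b y) = 0 ∧ f₀ (m b v₁) * f₁ (m b y) + f₀ (m b v₂) * f₂ (m b y) = 0 ∧
        f₀ (m b v₁) * (f₁ (m b v₂) * f₂ (m b y) - f₂ (m b v₂) * f₁ (m b y)) -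
          f₀ (m b v₂) * (f₁ (m b v₁) * f₂ (m b y) - f₂ (m b v₁) * f₁ (m b y)) = 0 := by
  obtain ⟨w, hw⟩ := not_forall.1 (hs a)
  have l3 : LinearIndependent F ![w, m a v₁, m a v₂] := li.finCons fun e => hw ((span_le (p :=
    LinearMap.range (m a))).2 (by rintro _ ⟨i, rfl⟩; fin_cases i <;> exact ⟨_, rfl⟩) e)
  have e3 : Fintype.card (Fin 3) = finrank F W₂ := l3.fintype_card_le_finrank.antisymm (by simpa)
  obtain ⟨B, hB⟩ : ∃ B : Basis (Fin 3) F W₂, ⇑B = ![w, m a v₁, m a v₂] :=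
    ⟨_, coe_basisOfLinearIndependentOfCardEqFinrank l3 e3⟩
  have b0 : B.repr w = Finsupp.single 0 1 := by simpa [hB] using B.repr_self 0
  have b1 : B.repr (m a v₁) = Finsupp.single 1 1 := by simpa [hB] using B.repr_self 1
  have b2 : B.repr (m a v₂) = Finsupp.single 2 1 := by simpa [hB] using B.repr_self 2
  refine ⟨B.coord 0, B.coord 1, B.coord 2, fun e => by simpa [b0] using e.ge (mem_top : w ∈ _),
    by simp [← e3], fun u hu => ?_, by simp [b1, b2], fun b => ?_⟩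
  · simpa [Fin.sum_univ_three, hB, show B.repr u 0 = 0 from hu] using B.sum_repr u
  have hd : ∀ b, B.det ![m b v₁, m b v₂, m b y] = 0 := fun b => by_contra fun e =>
    hs b (LinearMap.range_eq_top.1 (eq_top_iff.2 ((B.is_basis_iff_det.2 (Ne.isUnit e)).2.ge.trans
      (span_le.2 (by rintro _ ⟨i, rfl⟩; fin_cases i <;> exact ⟨_, rfl⟩)))))
  simp only [Basis.det_apply, Matrix.det_fin_three, Basis.toMatrix_apply, Matrix.cons_val] at hd
  simp only [Basis.coord_apply]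
  obtain ⟨-, h1, h2, -⟩ := poly3 (c₀ := 0) (c₁ := B.repr (m b y) 0) (c₂ := B.repr (m b y) 0 *
      (B.repr (m b v₁) 1 + B.repr (m b v₂) 2) - (B.repr (m b v₁) 0 * B.repr (m b y) 1 +
      B.repr (m b v₂) 0 * B.repr (m b y) 2)) (c₃ := 0) fun s => by
    have := hd (a + s • b)
    simp [b1, b2, hy] at this
    linear_combination this - s ^ 3 * hd b
  have := hd b
  rw [h1] at h2 this
  exact ⟨h1, by linear_combination -h2, by linear_combination this⟩

lemma GS.caseA [Infinite F] [Module.Finite F V] [Module.Finite F W₂] [Nontrivial V] (h : GS m L R L₃ R₃)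
    (h3 : finrank F V ≤ 3) (hW : finrank F W₂ ≤ 3) (hs : ∀ a, ¬ Surjective (m a))
    {a v₁ v₂ y b₁ b₂ : V} (li : LinearIndependent F ![m a v₁, m a v₂]) (hy : m a y = 0) (sp : Sp3 F v₁ v₂ y)
    (e1 : m b₁ y = m a v₁) (e2 : m b₂ y = m a v₂) : False := by
  obtain ⟨f₀, f₁, f₂, n0, -, hf, ⟨a1, a2, a3, a4, a5, a6⟩, hb⟩ := sing_setup hW hs li hy
  have l3 : LinearIndependent F ![a, b₁, b₂] := Fintype.linearIndependent_iff.2 fun g hg => by
    simp only [Fin.sum_univ_three, Matrix.cons_val] at hg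
    have g1 : g 1 = 0 := by simpa [hy, e1, e2, a2, a5] using congrArg (fun v => f₁ (m v y)) hg
    have g2 : g 2 = 0 := by simpa [hy, e1, e2, a3, a6] using congrArg (fun v => f₂ (m v y)) hg
    have g0 : g 0 = 0 := by simpa [g1, g2, a2] using congrArg (fun v => f₁ (m v v₁)) hg
    intro i; fin_cases i <;> assumption
  have sb := sp3_iff.2 (l3.span_eq_top_of_card_eq_finrank (l3.fintype_card_le_finrank.antisymm (by simpa)))
  have q1 : f₀ (m b₁ v₁) = 0 := by simpa [e1, a2, a3] using (hb b₁).2.1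
  have q2 : f₀ (m b₂ v₂) = 0 := by simpa [e2, a5, a6] using (hb b₂).2.1
  have q3 : f₀ (m b₁ v₂) = - f₀ (m b₂ v₁) := by
    have := (hb (b₁ + b₂)).2.1
    simp [e1, e2, a2, a3, a5, a6, q1, q2] at this
    linear_combination this
  have hκ : f₀ (m b₂ v₁) ≠ 0 := fun e => n0 (h.span _ fun x v => by
    obtain ⟨c, d, e, rfl⟩ := sb x
    obtain ⟨c', d', e', rfl⟩ := sp v
    simp [*])
  obtain ⟨c0, c1, c2, c3⟩ := poly3 (c₀ := f₂ (m b₁ v₁)) (c₁ := f₂ (m b₂ v₁) + f₂ (m b₁ v₂) - f₁ (m b₁ v₁))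
      (c₂ := f₂ (m b₂ v₂) - f₁ (m b₂ v₁) - f₁ (m b₁ v₂)) (c₃ := - f₁ (m b₂ v₂)) fun t => by
    have := (hb (b₁ + t • b₂)).2.2
    simp [e1, e2, a2, a3, a5, a6, q1, q2, q3] at this
    refine mul_left_cancel₀ hκ ?_
    linear_combination -this
  let k := (f₁ ∘ₗ m.flip y).smulRight v₁ + (f₂ ∘ₗ m.flip y).smulRight v₂ -
    (f₁ ∘ₗ m.flip v₁ + f₁ (m b₁ v₂) • f₂ ∘ₗ m.flip y).smulRight y
  refine h.no_skew h3 k (fun v => ?_) fun v => ?_
  · obtain ⟨c, d, e, rfl⟩ := sp v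
    refine ⟨c • b₁ + d • b₂ - (e + c * f₁ (m b₁ v₁) + d * (f₁ (m b₂ v₁) + f₁ (m b₁ v₂))) • a, ?_⟩
    simp [k, e1, e2, a2, a3, a5, a6, hy]
    module
  · obtain ⟨x, s, t, rfl⟩ := sb v
    have k0 : f₀ (m (x • a + s • b₁ + t • b₂) (k (x • a + s • b₁ + t • b₂))) = 0 := by
      simp [k, e1, e2, a1, a2, a3, a4, a5, a6, hy, q1, q2, q3]
      ring
    have k1 : f₁ (m (x • a + s • b₁ + t • b₂) (k (x • a + s • b₁ + t • b₂))) = 0 := by
      simp [k, e1, e2, a1, a2, a3, a4, a5, a6, hy, q1, q2, q3]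
      linear_combination (-t ^ 2) * c3
    have k2 : f₂ (m (x • a + s • b₁ + t • b₂) (k (x • a + s • b₁ + t • b₂))) = 0 := by
      simp [k, e1, e2, a1, a2, a3, a4, a5, a6, hy, q1, q2, q3]
      linear_combination s ^ 2 * c0 + s * t * c1 + t ^ 2 * c2
    rw [← hf _ k0, k1, k2, zero_smul, zero_smul, add_zero]

lemma GS.caseB [Infinite F] [Module.Finite F W₂] (h : GS m L R L₃ R₃) (c2 : C2 m)
    (hs : ∀ a, ¬ Surjective (m a)) {a v₁ v₂ y b₁ : V} (li : LinearIndependent F ![m a v₁, m a v₂])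
    (hy : m a y = 0) (sp : Sp3 F v₁ v₂ y) (e1 : m b₁ y = m a v₁) (e2 : ∀ b, ∃ c : F, c • m a v₁ = m b y) :
    False := by
  obtain ⟨f₀, f₁, f₂, n0, hW, hf, ⟨a1, a2, a3, a4, a5, a6⟩, hb⟩ :=
    sing_setup (c2.sp3 sp).finrank_le hs li hy
  have q1 : ∀ b, f₂ (m b y) = 0 := fun b => by
    obtain ⟨c, hc⟩ := e2 b
    simp [← hc, a3]
  have p0 : ∀ b, f₀ (m b v₁) = 0 := fun b => by
    have h1 : f₀ (m b₁ v₁) = 0 := by simpa [q1, e1, a2, a3] using (hb b₁).2.1
    have h2 := (hb b).2.1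
    have h3 := (hb (b + b₁)).2.1
    simp only [q1, e1, a2, a3, h1, map_add, LinearMap.add_apply] at h2 h3
    linear_combination h3 - h2
  obtain ⟨b₂, p1⟩ : ∃ b, f₀ (m b v₂) ≠ 0 ∧ f₁ (m b y) ≠ 0 := by
    by_contra! e
    refine n0 (h.span _ fun x v => ?_)
    obtain ⟨c', d', e', rfl⟩ := sp v
    have h1 : f₀ (m b₁ v₂) = 0 := by_contra fun h1 => by simpa [e1, a2] using e b₁ h1
    have h2 : f₀ (m x v₂) = 0 := by_contra fun h2 => by
      simpa [e1, a2, e x h2] using e (x + b₁) (by simpa [h1] using h2)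
    simp [p0, h2, (hb x).1]
  have m0 : ∀ b, f₂ (m b v₁) = 0 := fun b => by
    have h1 : f₂ (m b₂ v₁) = 0 := by simpa [p0, q1, p1] using (hb b₂).2.2
    have := (poly3 (c₀ := f₀ (m b v₂) * f₁ (m b y) * f₂ (m b v₁)) (c₁ := (f₀ (m b v₂) * f₁ (m b₂ y) +
        f₀ (m b₂ v₂) * f₁ (m b y)) * f₂ (m b v₁)) (c₂ := f₀ (m b₂ v₂) * f₁ (m b₂ y) * f₂ (m b v₁))
        (c₃ := 0) fun t => by
      have := (hb (b + t • b₂)).2.2
      simp only [p0, q1, h1, map_add, map_smul, LinearMap.add_apply, LinearMap.smul_apply, smul_eq_mul] at this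
      linear_combination this).2.2.1
    simpa [p1] using this
  have hv : ∀ b, m b v₁ = f₁ (m b v₁) • m a v₁ := fun b => by simpa [m0] using (hf _ (p0 b)).symm
  have hy' : ∀ b, m b y = f₁ (m b y) • m a v₁ := fun b => by simpa [q1] using (hf _ (hb b).1).symm
  have key : ∀ u', (∀ b, m b u' = f₁ (m b u') • m a v₁) → R u' (m a v₁) = 0 := fun u' hu => by
    by_cases e : f₁ (m y u') = 0
    · rw [← e1, ← h.as2, hu, e]; simp
    · have := h.as2 a (f₁ (m y u') • v₁ - f₁ (m v₁ u') • y) u'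
      rw [hu] at this
      simpa [hy, mul_comm, e] using this.symm
  have z1 : m v₁ y = 0 := h.nd2 _ fun x => by rw [h.as2, hv]; simp [key y hy']
  have z2 : m y v₁ = 0 := h.nd2 _ fun x => by rw [h.as2, hy']; simp [key v₁ hv]
  have := c2.sp3 sp
  rw [z1, z2, sub_self] at this
  exact hW.not_ge this.finrank_le_two

theorem GS.three [IsAlgClosed F] [Module.Finite F V] [Module.Finite F W₂] [Nontrivial V]
    (h : GS m L R L₃ R₃) (h3 : finrank F V ≤ 3) (c2 : C2 m) (c3 : finrank F W₂ = 3 → C3 L R) : False := by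
  have hs : ∀ a, ¬ Surjective (m a) := fun a ha => h.three_of_surj h3 c2 c3 ha
  obtain ⟨a, v₁, v₂, li⟩ : ∃ a v₁ v₂, LinearIndependent F ![m a v₁, m a v₂] := by
    by_contra! e
    obtain ⟨a, ha⟩ := h.exists_surj fun a y y' h0 => by
      simpa [LinearIndependent.pair_iff' h0] using e a y y'
    exact hs a ha
  have hsp : ∀ {v₁ v₂}, LinearIndependent F ![m a v₁, m a v₂] → ∀ y, m a y = 0 → y ≠ 0 → Sp3 F v₁ v₂ y :=
    fun {v₁ v₂} li y hy h0 => by
      have l3 : LinearIndependent F ![v₁, v₂, y] := Fintype.linearIndependent_iff.2 fun g hg => by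
        simp only [Fin.sum_univ_three, Matrix.cons_val] at hg
        obtain ⟨g0, g1⟩ := LinearIndependent.pair_iff.1 li (g 0) (g 1) (by simpa [hy] using congrArg (m a) hg)
        have g2 : g 2 = 0 := by simpa [g0, g1, h0] using hg
        intro i; fin_cases i <;> assumption
      exact sp3_iff.2 (l3.span_eq_top_of_card_eq_finrank (l3.fintype_card_le_finrank.antisymm (by simpa)))
  have l2 : LinearIndependent F ![v₁, v₂] := LinearIndependent.pair_iff.2 fun c d e =>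
    LinearIndependent.pair_iff.1 li c d (by simpa using congrArg (m a) e)
  obtain ⟨z, hz⟩ := exists_sp3 h3 l2
  have hW := (c2.sp3 hz).finrank_le
  obtain ⟨y, hy, h0⟩ : ∃ y, m a y = 0 ∧ y ≠ 0 := by
    obtain ⟨f₀, f₁, f₂, -, h2, -⟩ := sing_setup hW hs li (map_zero _)
    by_contra! e
    refine hs a ((LinearMap.injective_iff_surjective_of_finrank_eq_finrank (by_contra fun h4 => ?_)).1
      ((injective_iff_map_eq_zero _).2 e))
    have := c2.sp3 (x := v₁) (y := v₂) (z := 0) (by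
      simpa only [eq_top_iff', mem_range2, Sp3, smul_zero, add_zero, exists_const] using
        l2.span_eq_top_of_card_eq_finrank (l2.fintype_card_le_finrank.antisymm (by simp; omega)))
    simp only [map_zero, LinearMap.zero_apply, sub_self] at this
    exact h2.not_ge this.finrank_le_two
  have hr : ∀ b, ∃ v, m a v = m b y := fun b => by
    obtain ⟨f₀, f₁, f₂, -, -, hf, -, hb⟩ := sing_setup hW hs li hy
    exact ⟨f₁ (m b y) • v₁ + f₂ (m b y) • v₂, by simpa using hf _ (hb b).1⟩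
  obtain ⟨b₁, hb₁⟩ : ∃ b, m b y ≠ 0 := by_contra fun e => h0 (h.nd1 _ (by simpa using e))
  obtain ⟨u₁, hu₁⟩ := hr b₁
  rw [← hu₁] at hb₁
  by_cases e : ∀ b, ∃ c : F, c • m a u₁ = m b y
  · obtain ⟨u₂, l⟩ : ∃ u₂, LinearIndependent F ![m a u₁, m a u₂] := by
      by_contra! e
      simp only [LinearIndependent.pair_iff' hb₁, not_forall, not_not] at e
      obtain ⟨c, hc⟩ := e v₁
      obtain ⟨d, hd⟩ := e v₂
      obtain ⟨rfl, h2⟩ := LinearIndependent.pair_iff.1 li d (-c) (by rw [← hc, ← hd]; module)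
      simpa [← hd] using li.ne_zero 1
    exact h.caseB c2 hs l hy (hsp l y hy h0) hu₁.symm e
  · obtain ⟨b₂, hb₂⟩ := not_forall.1 e
    obtain ⟨u₂, hu₂⟩ := hr b₂
    have l : LinearIndependent F ![m a u₁, m a u₂] :=
      (LinearIndependent.pair_iff' hb₁).2 (hu₂ ▸ not_exists.1 hb₂)
    exact h.caseA h3 hW hs l hy (hsp l y hy h0) hu₁.symm hu₂.symm

end Cfsg.Agent.CK
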